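import Cfsg.Agent.L.Sz.Simple
import Cfsg.Agent.L.Sz.Bridge
/-!
The smallest degree of a nontrivial irreducible representation of the Suzuki groups.
-/
set_option autoImplicit false
set_option maxHeartbeats 400000
namespace CfsgL.Sz
open Finset

section indep
variable {ι κ : Type*} {V : Type*} [AddCommGroup V] [Module ℂ V]

theorem eig_indep [DecidableEq ι] (T : κ → V →ₗ[ℂ] V) (χ : ι → κ → ℂ)
    (hχ : ∀ i j, i ≠ j → ∃ c, χ i c ≠ χ j c) (n : ℕ) :
    ∀ (s : Finset ι), s.card = n → ∀ (w : ι → V), (∀ i c, T c (w i) = χ i c • w i) →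
      ∑ i ∈ s, w i = 0 → ∀ i ∈ s, w i = 0 := by
  induction n with
  | zero =>
    intro s hs w _ _ i hi
    rw [Finset.card_eq_zero] at hs
    rw [hs] at hi
    simp at hi
  | succ n ih =>
    intro s hs w hw h i hi
    by_cases hj : ∃ j ∈ s, j ≠ i
    · obtain ⟨j, hjs, hji⟩ := hj
      obtain ⟨c, hc⟩ := hχ i j (Ne.symm hji)
      have h1 := ih (s.erase j) (by rw [Finset.card_erase_of_mem hjs, hs]; rfl)
        (fun k => (χ k c - χ j c) • w k) (fun k d => by
          rw [map_smul, hw, smul_comm]) (by
          have h2 : ∑ k ∈ s, (χ k c - χ j c) • w k = 0 := by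
            have h3 : T c (∑ k ∈ s, w k) = 0 := by rw [h, map_zero]
            rw [map_sum] at h3
            have h4 : ∑ k ∈ s, (χ k c - χ j c) • w k =
                ∑ k ∈ s, T c (w k) - χ j c • ∑ k ∈ s, w k := by
              rw [Finset.smul_sum, ← Finset.sum_sub_distrib]
              apply Finset.sum_congr rfl
              intro k _
              rw [hw, sub_smul]
            rw [h4, h3, h]; simp
          rw [← Finset.add_sum_erase _ _ hjs] at h2
          simpa using h2) i (Finset.mem_erase.2 ⟨Ne.symm hji, hi⟩)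
      rcases smul_eq_zero.1 h1 with h2 | h2
      · exact absurd (sub_eq_zero.1 h2) hc
      · exact h2
    · push Not at hj
      have h1 : s = {i} := by
        ext k
        rw [Finset.mem_singleton]
        exact ⟨fun hk => hj k hk, fun hk => hk ▸ hi⟩
      rw [h1, Finset.sum_singleton] at h
      exact h

end indep

section field
variable {F : Type*} [Field F] [Fintype F] {m : ℕ} [CharP F 2] [hF : Fact (Fintype.card F = 2 ^ (2 * m + 1))]

theorem neg_self (x : F) : -x = x := CharTwo.neg_eq x

variable (F m) in
/-- t ↦ σ t + t -/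
def ff : F →+ F := (sg F m : F →+* F).toAddMonoidHom + AddMonoidHom.id F

theorem ff_apply (t : F) : ff F m t = sg F m t + t := rfl

theorem ker_ff : Nat.card (ff F m).ker = 2 := by
  have h1 : ∀ t : F, t ∈ (ff F m).ker ↔ t = 0 ∨ t = 1 := by
    intro t
    rw [AddMonoidHom.mem_ker, ff_apply]
    constructor
    · intro h
      have h2 : sg F m t = t := by
        have := eq_neg_of_add_eq_zero_left h
        rwa [neg_self] at this
      have h3 := sg_sg (m := m) t
      rw [h2, h2] at h3
      by_cases ht : t = 0
      · exact Or.inl ht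
      · right
        have h4 : t * 1 = t * t := by rw [mul_one, ← pow_two]; exact h3
        exact (mul_left_cancel₀ ht h4).symm
    · rintro (rfl | rfl)
      · simp
      · rw [map_one]; exact CharTwo.add_self_eq_zero 1
  have h2 : Nat.card (ff F m).ker = Nat.card ({0, 1} : Set F) := by
    apply Nat.card_congr
    apply Equiv.setCongr
    ext t
    exact h1 t
  rw [h2, Nat.card_coe_set_eq, Set.ncard_pair zero_ne_one]

theorem index_range_ff : (ff F m).range.index = 2 := by
  have h1 := AddSubgroup.card_mul_index (ff F m).ker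
  have h2 := AddSubgroup.card_mul_index (ff F m).range
  rw [AddSubgroup.index_ker] at h1
  have h3 : 0 < Nat.card (ff F m).range := Nat.card_pos
  rw [← h1, ker_ff, mul_comm 2] at h2
  exact Nat.eq_of_mul_eq_mul_left h3 h2

/-- the norm-like map is injective -/
theorem nn_inj {a b : F} (ha : a ≠ 0) (hb : b ≠ 0) (h : a * sg F m a = b * sg F m b) : a = b := by
  have hr : (a / b) * sg F m (a / b) = 1 := by
    rw [map_div₀, div_mul_div_comm, h, div_self]
    exact mul_ne_zero hb (fun h1 => hb (sg_eq_zero.1 h1))
  have h1 : a / b ≠ 0 := div_ne_zero ha hb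
  have h2 : sg F m (a / b) = (a / b)⁻¹ := eq_inv_of_mul_eq_one_right hr
  have h3 := sg_sg (m := m) (a / b)
  rw [h2, map_inv₀, h2, inv_inv] at h3
  have h4 : (a / b) * 1 = (a / b) * (a / b) := by rw [mul_one, ← pow_two]; exact h3
  have h5 := (mul_left_cancel₀ h1 h4).symm
  exact (div_eq_one_iff_eq hb).1 h5

/-- the radical has at most one nonzero element -/
theorem radical_unique (l : AddChar F ℂ) (hl : ∃ x, l x ≠ 1) {a b : F} (ha : a ≠ 0) (hb : b ≠ 0)
    (h1 : ∀ c, l (sg F m c * a + sg F m a * c) = 1) (h2 : ∀ c, l (sg F m c * b + sg F m b * c) = 1) :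
    a = b := by
  let K : AddSubgroup F :=
    { carrier := {x | l x = 1}
      zero_mem' := l.map_zero_eq_one
      add_mem' := by
        intro x y hx hy
        change l (x + y) = 1
        rw [AddChar.map_add_eq_mul, hx, hy, one_mul]
      neg_mem' := by
        intro x hx
        change l (-x) = 1
        rw [neg_self]; exact hx }
  have hK : K ≠ ⊤ := by
    intro h
    obtain ⟨x, hx⟩ := hl
    have : x ∈ K := by rw [h]; trivial
    exact hx this
  let I : AddSubgroup F := (ff F m).range
  -- multiples of I
  have key : ∀ a : F, a ≠ 0 → (∀ c, l (sg F m c * a + sg F m a * c) = 1) →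
      I.map (AddMonoidHom.mulLeft (a * sg F m a)) = K := by
    intro a ha h
    have hN : a * sg F m a ≠ 0 := mul_ne_zero ha (fun h1 => ha (sg_eq_zero.1 h1))
    have hle : I.map (AddMonoidHom.mulLeft (a * sg F m a)) ≤ K := by
      rintro _ ⟨_, ⟨t, rfl⟩, rfl⟩
      change l (a * sg F m a * (ff F m t)) = 1
      rw [ff_apply, ← h (a * t)]
      congr 1
      rw [map_mul]; ring
    have hinj : Function.Injective (AddMonoidHom.mulLeft (a * sg F m a)) := fun x y hxy =>
      mul_left_cancel₀ hN hxy
    have hc : Nat.card (I.map (AddMonoidHom.mulLeft (a * sg F m a))) = Nat.card I :=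
      (Nat.card_congr (I.equivMapOfInjective _ hinj).toEquiv).symm
    apply AddSubgroup.eq_of_le_of_card_ge hle
    rw [hc]
    have e1 := AddSubgroup.card_mul_index I
    have e2 := AddSubgroup.card_mul_index K
    have e3 : I.index = 2 := index_range_ff (F := F) (m := m)
    have e4 : K.index ≠ 1 := fun h => hK (AddSubgroup.index_eq_one.1 h)
    have e5 : K.index ≠ 0 := AddSubgroup.index_ne_zero_of_finite
    rw [e3] at e1
    have e6 : 2 ≤ K.index := by omega
    have e7 : Nat.card K * 2 ≤ Nat.card K * K.index := Nat.mul_le_mul_left _ e6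
    omega
  have hab : I.map (AddMonoidHom.mulLeft (a * sg F m a)) =
      I.map (AddMonoidHom.mulLeft (b * sg F m b)) := (key a ha h1).trans (key b hb h2).symm
  have hNa : a * sg F m a ≠ 0 := mul_ne_zero ha (fun h1 => ha (sg_eq_zero.1 h1))
  have hNb : b * sg F m b ≠ 0 := mul_ne_zero hb (fun h1 => hb (sg_eq_zero.1 h1))
  apply nn_inj (m := m) ha hb
  by_contra hne
  let s := (a * sg F m a) / (b * sg F m b)
  have hs1 : s ≠ 1 := fun h => hne ((div_eq_one_iff_eq hNb).1 h)
  have hs0 : s ≠ 0 := div_ne_zero hNa hNb
  have hsI : ∀ x, x ∈ I ↔ s * x ∈ I := by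
    intro x
    constructor
    · intro hx
      have h3 : a * sg F m a * x ∈ I.map (AddMonoidHom.mulLeft (b * sg F m b)) := by
        rw [← hab]; exact ⟨x, hx, rfl⟩
      obtain ⟨y, hy, hyx⟩ := h3
      change b * sg F m b * y = a * sg F m a * x at hyx
      have : s * x = y := by
        change a * sg F m a / (b * sg F m b) * x = y
        rw [div_mul_eq_mul_div, ← hyx, mul_div_cancel_left₀ _ hNb]
      rw [this]; exact hy
    · intro hx
      have h3 : b * sg F m b * (s * x) ∈ I.map (AddMonoidHom.mulLeft (a * sg F m a)) := by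
        rw [hab]; exact ⟨s * x, hx, rfl⟩
      obtain ⟨y, hy, hyx⟩ := h3
      change a * sg F m a * y = b * sg F m b * (s * x) at hyx
      have : x = y := by
        have h4 : b * sg F m b * (s * x) = a * sg F m a * x := by
          change b * sg F m b * (a * sg F m a / (b * sg F m b) * x) = _
          rw [← mul_assoc, mul_div_cancel₀ _ hNb]
        rw [h4] at hyx
        exact (mul_left_cancel₀ hNa hyx).symm
      rw [this]; exact hy
  have hI : I ≠ ⊤ := by
    intro h
    have h3 : I.index = 2 := index_range_ff (F := F) (m := m)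
    rw [h, AddSubgroup.index_top] at h3
    omega
  apply hI
  rw [eq_top_iff]
  intro y _
  -- y = (s + 1) * z
  have hs2 : s + 1 ≠ 0 := by
    intro h
    apply hs1
    have := eq_neg_of_add_eq_zero_left h
    rwa [neg_self] at this
  have h3 : s * (y / (s + 1)) + (y / (s + 1)) ∈ I := by
    rw [AddSubgroup.add_mem_iff_of_index_two (show I.index = 2 from index_range_ff (F := F) (m := m))]
    exact (hsI _).symm
  have h4 : s * (y / (s + 1)) + (y / (s + 1)) = y := by
    field_simp
  rwa [h4] at h3

theorem two_pow_le_range (l : AddChar F ℂ) (hl : ∃ x, l x ≠ 1) :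
    2 ^ (2 * m) ≤ Nat.card (Set.range (fun (a c : F) => l (sg F m c * a + sg F m a * c))) := by
  classical
  let f : F → F → ℂ := fun a c => l (sg F m c * a + sg F m a * c)
  have h1 : (Finset.univ : Finset F).card ≤ 2 * (Finset.univ.image f).card := by
    apply Finset.card_le_mul_card_image
    intro b hb
    obtain ⟨a0, -, rfl⟩ := Finset.mem_image.1 hb
    -- translate the fibre into the radical
    have h2 : ∀ a, f a = f a0 → ∀ c, l (sg F m c * (a + a0) + sg F m (a + a0) * c) = 1 := by
      intro a ha c
      have h3 : sg F m c * (a + a0) + sg F m (a + a0) * c =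
          (sg F m c * a + sg F m a * c) + (sg F m c * a0 + sg F m a0 * c) := by
        rw [map_add]; ring
      have h4 : l (sg F m c * a + sg F m a * c) = l (sg F m c * a0 + sg F m a0 * c) := congrFun ha c
      rw [h3, AddChar.map_add_eq_mul, h4, ← AddChar.map_add_eq_mul, CharTwo.add_self_eq_zero,
        AddChar.map_zero_eq_one]
    by_contra hcon
    push Not at hcon
    obtain ⟨x, y, z, hx, hy, hz, hxy, hxz, hyz⟩ := Finset.two_lt_card_iff.1 hcon
    simp only [Finset.mem_filter, Finset.mem_univ, true_and] at hx hy hz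
    have hx' := h2 x hx
    have hy' := h2 y hy
    have hz' := h2 z hz
    have hz0 : ∀ {p q : F}, p + a0 = q + a0 → p = q := fun h => add_right_cancel h
    by_cases hxa : x + a0 = 0
    · have e1 : y + a0 ≠ 0 := fun h => hxy (hz0 (hxa.trans h.symm))
      have e2 : z + a0 ≠ 0 := fun h => hxz (hz0 (hxa.trans h.symm))
      exact hyz (hz0 (radical_unique (m := m) l hl e1 e2 hy' hz'))
    · by_cases hya : y + a0 = 0
      · have e2 : z + a0 ≠ 0 := fun h => hyz (hz0 (hya.trans h.symm))
        exact hxz (hz0 (radical_unique (m := m) l hl hxa e2 hx' hz'))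
      · exact hxy (hz0 (radical_unique (m := m) l hl hxa hya hx' hy'))
  have h2 : Nat.card (Set.range f) = (Finset.univ.image f).card := by
    rw [Nat.card_coe_set_eq, ← Set.image_univ, ← Finset.coe_univ, ← Finset.coe_image,
      Set.ncard_coe_finset]
  change _ ≤ Nat.card (Set.range f)
  rw [h2]
  rw [Finset.card_univ, hF.out, pow_succ] at h1
  omega

end field

end CfsgL.Sz
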