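import Cfsg.Agent.L.Sz.MinDeg
/-!
The smallest degree of a nontrivial representation of the Suzuki groups.
-/
set_option autoImplicit false
set_option maxHeartbeats 400000
namespace CfsgL.Sz
open Finset

variable {F : Type*} [Field F] [Fintype F] {m : ℕ} [CharP F 2] [hF : Fact (Fintype.card F = 2 ^ (2 * m + 1))]
variable {V : Type*} [AddCommGroup V] [Module ℂ V]

section
variable (ρ : Representation ℂ (Gz F m) V)

def VV (l : AddChar F ℂ) : Submodule ℂ V where
  carrier := {v | ∀ b : F, ρ (u m 0 b) v = l b • v}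
  add_mem' := by
    intro x y hx hy b
    change ρ _ (x+y) = _
    rw [map_add, hx b, hy b, smul_add]
  zero_mem' := by intro b; rw [map_zero, smul_zero]
  smul_mem' := by
    intro c x hx b
    change ρ _ (c • x) = _
    rw [map_smul, hx b, smul_comm]

theorem mem_VV {l : AddChar F ℂ} {v : V} : v ∈ VV ρ l ↔ ∀ b : F, ρ (u m 0 b) v = l b • v := Iff.rfl

theorem u_comm (a b c : F) : u m a b * u m 0 c = u m 0 c * u m a b := by
  rw [u_mul, u_mul, map_zero, mul_zero, zero_mul, add_zero, add_zero, add_zero, zero_add, add_comm b c]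

theorem u_mem_VV (l : AddChar F ℂ) (a b : F) {v : V} (hv : v ∈ VV ρ l) : ρ (u m a b) v ∈ VV ρ l := by
  intro c
  rw [← Module.End.mul_apply, ← map_mul, ← u_comm, map_mul, Module.End.mul_apply, hv c, map_smul]

def SS (l : AddChar F ℂ) (a b : F) : Module.End ℂ (VV ρ l) :=
  (ρ (u m a b)).restrict (fun _ hv => u_mem_VV ρ l a b hv)

theorem SS_apply (l : AddChar F ℂ) (a b : F) (v : VV ρ l) : ((SS ρ l a b v : VV ρ l) : V) = ρ (u m a b) v := rfl

theorem SS_mul (l : AddChar F ℂ) (a b c d : F) : SS ρ l a b * SS ρ l c d = SS ρ l (a + c) (b + d + sg F m a * c) := by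
  ext v
  rw [Module.End.mul_apply, SS_apply, SS_apply, SS_apply, ← u_mul, map_mul, Module.End.mul_apply]

theorem SS_zero (l : AddChar F ℂ) : SS ρ l 0 0 = 1 := by
  ext v
  rw [SS_apply, u_zero, map_one]; rfl

theorem SS_center (l : AddChar F ℂ) (b : F) : SS ρ l 0 b = l b • (1 : Module.End ℂ (VV ρ l)) := by
  ext v
  rw [SS_apply, v.2 b]; rfl

theorem SS_conj (l : AddChar F ℂ) (a c : F) :
    SS ρ l c 0 * SS ρ l a 0 * SS ρ l c (sg F m c * c) = l (sg F m c * a + sg F m a * c) • SS ρ l a 0 := by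
  have h1 : SS ρ l c 0 * SS ρ l a 0 = SS ρ l 0 (sg F m c * a + sg F m a * c) * (SS ρ l a 0 * SS ρ l c 0) := by
    rw [SS_mul, SS_mul, SS_mul]
    congr 1
    · ring
    · rw [map_zero]
      have := two0 (sg F m a * c)
      linear_combination -this
  have h2 : SS ρ l c 0 * SS ρ l c (sg F m c * c) = 1 := by
    rw [SS_mul, ← SS_zero]
    congr 1
    · exact two0 c
    · have := two0 (sg F m c * c)
      linear_combination this
  rw [h1, mul_assoc, mul_assoc, h2, mul_one, SS_center, smul_mul_assoc, one_mul]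

theorem SS_ne_zero {l : AddChar F ℂ} (h : VV ρ l ≠ ⊥) (a : F) : SS ρ l a 0 ≠ 0 := by
  intro h1
  have h2 : SS ρ l a 0 * SS ρ l a (sg F m a * a) = 1 := by
    rw [SS_mul, ← SS_zero]
    congr 1
    · exact two0 a
    · have := two0 (sg F m a * a)
      linear_combination this
  rw [h1, zero_mul] at h2
  obtain ⟨v, hv, hv0⟩ := (Submodule.ne_bot_iff _).1 h
  have h3 := congrArg (fun f : Module.End ℂ (VV ρ l) => ((f ⟨v, hv⟩ : VV ρ l) : V)) h2
  exact hv0 h3.symm

theorem two_pow_le_finrank [FiniteDimensional ℂ V] {l : AddChar F ℂ} (hl : ∃ x, l x ≠ 1) (h : VV ρ l ≠ ⊥) :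
    2 ^ m ≤ Module.finrank ℂ (VV ρ l) := by
  classical
  have h1 := two_pow_le_range (F := F) (m := m) l hl
  let R : Set (F → ℂ) := Set.range (fun (a c : F) => l (sg F m c * a + sg F m a * c))
  have hRf : R.Finite := Set.finite_range _
  haveI : Fintype R := hRf.fintype
  have hR : ∀ r : R, ∃ a : F, (fun c : F => l (sg F m c * a + sg F m a * c)) = r.1 := fun r => r.2
  choose a ha using hR
  have hli : LinearIndependent ℂ (fun r : R => SS ρ l (a r) 0) := by
    rw [Fintype.linearIndependent_iff]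
    intro g hg
    let T : F → Module.End ℂ (VV ρ l) →ₗ[ℂ] Module.End ℂ (VV ρ l) := fun c =>
      (LinearMap.mulRight ℂ (SS ρ l c (sg F m c * c))).comp (LinearMap.mulLeft ℂ (SS ρ l c 0))
    have hT : ∀ c A, T c A = SS ρ l c 0 * A * SS ρ l c (sg F m c * c) := fun c A => rfl
    have h2 := eig_indep T (fun r : R => r.1) (by
      intro i j hij
      by_contra hc
      push Not at hc
      exact hij (Subtype.ext (funext hc))) _ Finset.univ rfl (fun r : R => g r • SS ρ l (a r) 0) (by
      intro r c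
      rw [hT, mul_smul_comm, smul_mul_assoc, SS_conj, smul_comm]
      congr 2
      exact congrFun (ha r) c) hg
    intro r
    exact (smul_eq_zero.1 (h2 r (Finset.mem_univ r))).resolve_right (SS_ne_zero ρ h _)
  have h3 := hli.fintype_card_le_finrank
  rw [Module.finrank_linearMap] at h3
  have h4 : Nat.card R = Fintype.card R := Nat.card_eq_fintype_card
  have h5 : (2 ^ m) * (2 ^ m) ≤ Module.finrank ℂ (VV ρ l) * Module.finrank ℂ (VV ρ l) := by
    have : (2 : ℕ) ^ m * 2 ^ m = 2 ^ (2 * m) := by rw [← pow_add]; congr 1; ring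
    rw [this]
    calc 2 ^ (2 * m) ≤ Nat.card R := h1
      _ = Fintype.card R := h4
      _ ≤ _ := h3
  exact Nat.mul_self_le_mul_self_iff.1 h5

/-- projection -/
noncomputable def PP (l : AddChar F ℂ) (v : V) : V := ∑ b : F, l b • ρ (u m 0 b) v

theorem PP_mem (l : AddChar F ℂ) (v : V) : PP ρ l v ∈ VV ρ l := by
  intro c
  unfold PP
  rw [map_sum, Finset.smul_sum]
  rw [← Equiv.sum_comp (Equiv.addLeft c) (fun b => l c • l b • ρ (u m 0 b) v)]
  apply Finset.sum_congr rfl
  intro b _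
  rw [map_smul, ← Module.End.mul_apply, ← map_mul, u_mul]
  simp only [Equiv.coe_addLeft, map_zero, zero_mul, mul_zero, add_zero]
  rw [smul_smul, AddChar.map_add_eq_mul, ← mul_assoc, ← AddChar.map_add_eq_mul, two0, AddChar.map_zero_eq_one, one_mul]

theorem sum_PP (v : V) : ∑ l : AddChar F ℂ, PP ρ l v = (Fintype.card F : ℂ) • v := by
  classical
  unfold PP
  rw [Finset.sum_comm]
  have h1 : ∀ b : F, ∑ l : AddChar F ℂ, l b • ρ (u m 0 b) v = if b = 0 then (Fintype.card F : ℂ) • v else 0 := by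
    intro b
    rw [← Finset.sum_smul, AddChar.sum_apply_eq_ite]
    split_ifs with h
    · rw [h, u_zero, map_one]; rfl
    · rw [zero_smul]
  rw [Finset.sum_congr rfl (fun b _ => h1 b)]
  simp

theorem hh_VV (l : AddChar F ℂ) (j : Fˣ) {v : V} (hv : v ∈ VV ρ l) :
    ρ (hh m j) v ∈ VV ρ (l.mulShift (sg F m j * (j : F) ^ 2)⁻¹) := by
  intro b
  have hj : sg F m (j : F) * (j : F) ^ 2 ≠ 0 := mul_ne_zero (fun h => j.ne_zero (sg_eq_zero.1 h)) (pow_ne_zero _ j.ne_zero)
  have h1 : u m 0 b * hh m j = hh m j * u m 0 ((sg F m j * (j : F) ^ 2)⁻¹ * b) := by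
    rw [hh_u, mul_zero, mul_inv_cancel_left₀ hj]
  rw [← Module.End.mul_apply, ← map_mul, h1, map_mul, Module.End.mul_apply, hv, map_smul, AddChar.mulShift_apply]

theorem sj_surj (k : F) (hk : k ≠ 0) : ∃ j : Fˣ, sg F m j * (j : F) ^ 2 = k := by
  let f : Fˣ →* Fˣ := (Units.map (sg F m : F →* F)) * (powMonoidHom 2)
  have hf : ∀ j : Fˣ, ((f j : Fˣ) : F) = sg F m j * (j : F) ^ 2 := fun j => rfl
  have hinj : Function.Injective f := by
    rw [injective_iff_map_eq_one]
    intro j hj
    have h1 : sg F m j * (j : F) ^ 2 = 1 := by rw [← hf, hj]; rfl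
    have h2 : sg F m (sg F m j * (j : F) ^ 2) = 1 := by rw [h1, map_one]
    rw [map_mul, sg_sg, map_pow] at h2
    have h3 : sg F m (j : F) = 1 := by
      have h4 : sg F m (j : F) * (sg F m j * (j : F) ^ 2) = 1 := by linear_combination h2
      rwa [h1, mul_one] at h4
    have := (map_eq_one_iff _ (sg F m).injective).1 h3
    exact Units.ext this
  obtain ⟨j, hj⟩ := Finite.surjective_of_injective hinj (Units.mk0 k hk)
  exact ⟨j, by rw [← hf, hj]; rfl⟩

theorem VV_ne_bot_all {l0 : AddChar F ℂ} (hl0 : l0 ≠ 1) (h0 : VV ρ l0 ≠ ⊥) {l : AddChar F ℂ} (hl : l ≠ 1) :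
    VV ρ l ≠ ⊥ := by
  have hp : l0.IsPrimitive := AddChar.IsPrimitive.of_ne_one hl0
  have hinj : Function.Injective (fun k : F => l0.mulShift k) := AddChar.to_mulShift_inj_of_isPrimitive hp
  have hbij : Function.Bijective (fun k : F => l0.mulShift k) := by
    rw [Fintype.bijective_iff_injective_and_card]
    exact ⟨hinj, (AddChar.card_eq).symm⟩
  obtain ⟨k, hk⟩ := hbij.2 l
  have hk0 : k ≠ 0 := by
    rintro rfl
    apply hl
    rw [← hk]
    exact AddChar.mulShift_zero l0
  obtain ⟨j, hj⟩ := sj_surj (m := m) k⁻¹ (inv_ne_zero hk0)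
  obtain ⟨v, hv, hv0⟩ := (Submodule.ne_bot_iff _).1 h0
  have h1 := hh_VV ρ l0 j hv
  rw [hj, inv_inv] at h1
  change _ ∈ VV ρ ((fun k : F => l0.mulShift k) k) at h1
  rw [hk] at h1
  rw [Submodule.ne_bot_iff]
  refine ⟨_, h1, ?_⟩
  intro h2
  apply hv0
  have h3 := congrArg (ρ (hh m j)⁻¹) h2
  rw [← Module.End.mul_apply, ← map_mul, inv_mul_cancel, map_one, map_zero] at h3
  exact h3

theorem final_bound [FiniteDimensional ℂ V] (h : ∀ l : AddChar F ℂ, l ≠ 1 → VV ρ l ≠ ⊥) :
    2 ^ m * (2 ^ (2 * m + 1) - 1) ≤ Module.finrank ℂ V := by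
  classical
  let ι := {l : AddChar F ℂ // l ≠ 1}
  have hι : Fintype.card ι = 2 ^ (2 * m + 1) - 1 := by
    rw [Fintype.card_subtype_compl, Fintype.card_subtype_eq, AddChar.card_eq, hF.out]
  let L : (∀ l : ι, VV ρ l.1) →ₗ[ℂ] V := ∑ l : ι, (VV ρ l.1).subtype.comp (LinearMap.proj l)
  have hL : ∀ w, L w = ∑ l : ι, (w l : V) := by
    intro w
    change (∑ l : ι, (VV ρ l.1).subtype.comp (LinearMap.proj l)) w = _
    rw [LinearMap.sum_apply]
    rfl
  have hinj : Function.Injective L := by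
    rw [injective_iff_map_eq_zero]
    intro w hw
    rw [hL] at hw
    have h2 := eig_indep (fun b : F => ρ (u m 0 b)) (fun l : ι => fun b => l.1 b) (by
      intro i j hij
      by_contra hc
      push Not at hc
      exact hij (Subtype.ext (DFunLike.ext _ _ hc))) _ Finset.univ rfl (fun l => (w l : V)) (fun l c => (w l).2 c) hw
    funext l
    exact Subtype.ext (h2 l (Finset.mem_univ l))
  have h3 := LinearMap.finrank_le_finrank_of_injective hinj
  rw [Module.finrank_pi_fintype] at h3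
  refine le_trans ?_ h3
  rw [← hι, mul_comm, ← smul_eq_mul, ← Finset.card_univ, ← Finset.sum_const]
  apply Finset.sum_le_sum
  intro l _
  exact two_pow_le_finrank ρ (AddChar.ne_one_iff.1 l.2) (h l.1 l.2)

theorem main_bound [hm : Fact (1 ≤ m)] [FiniteDimensional ℂ V] (hnt : ∃ g, ρ g ≠ 1) :
    2 ^ m * (2 ^ (2 * m + 1) - 1) ≤ Module.finrank ℂ V := by
  classical
  by_cases hex : ∃ l : AddChar F ℂ, l ≠ 1 ∧ VV ρ l ≠ ⊥
  · obtain ⟨l, hl, h⟩ := hex
    exact final_bound ρ (fun l' hl' => VV_ne_bot_all ρ hl h hl')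
  · exfalso
    push Not at hex
    -- centre acts trivially
    have h1 : ∀ v, v ∈ VV ρ 1 := by
      intro v
      have h2 := sum_PP ρ v
      rw [← Finset.add_sum_erase _ _ (Finset.mem_univ (1 : AddChar F ℂ))] at h2
      rw [Finset.sum_eq_zero (s := Finset.univ.erase 1) (by
        intro l hl
        have h3 := PP_mem ρ l v
        rw [hex l (Finset.ne_of_mem_erase hl)] at h3
        exact (Submodule.mem_bot ℂ).1 h3), add_zero] at h2
      have h3 := PP_mem ρ 1 v
      rw [h2] at h3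
      have h4 : (Fintype.card F : ℂ) ≠ 0 := Nat.cast_ne_zero.2 Fintype.card_ne_zero
      exact (Submodule.smul_mem_iff _ h4).1 h3
    have h2 : ∀ b, ρ (u m 0 b) = 1 := by
      intro b
      ext v
      rw [h1 v b]
      simp
    have h3 : u m (0 : F) 1 ∈ (MonoidHom.ker ρ) := h2 1
    haveI : IsSimpleGroup (Gz F m) := isSimple
    have h4 : MonoidHom.ker ρ = ⊤ := by
      rcases (inferInstance : (MonoidHom.ker ρ).Normal).eq_bot_or_eq_top with h | h
      · exfalso
        rw [h, Subgroup.mem_bot] at h3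
        have h5 : u m (0 : F) 1 = u m 0 0 := by rw [h3, u_zero]
        exact one_ne_zero (u_inj h5).2
      · exact h
    obtain ⟨g, hg⟩ := hnt
    apply hg
    have : g ∈ MonoidHom.ker ρ := by rw [h4]; trivial
    exact this

end

/-- an irreducible representation of degree at least two is nontrivial -/
theorem nontriv_of_irred {G : Type*} [Group G] {k : ℕ} (ρ : Representation ℂ G (Fin k → ℂ))
    (h : ρ.IsIrreducible) (hk : 2 ≤ k) : ∃ g, ρ g ≠ 1 := by
  by_contra hcon
  push Not at hcon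
  haveI := h
  let e : Fin k → ℂ := Pi.single ⟨0, by omega⟩ 1
  let S : Subrepresentation ρ :=
    { toSubmodule := Submodule.span ℂ {e}
      apply_mem_toSubmodule := by
        intro g v hv
        rw [hcon g]; exact hv }
  have he : e ∈ S.toSubmodule := Submodule.mem_span_singleton_self e
  rcases IsSimpleOrder.eq_bot_or_eq_top S with h1 | h1
  · have h2 : e ∈ (⊥ : Subrepresentation ρ).toSubmodule := by rw [← h1]; exact he
    have h3 : e = 0 := h2
    have h4 := congrFun h3 ⟨0, by omega⟩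
    simp [e] at h4
  · have h2 : (Pi.single ⟨1, by omega⟩ 1 : Fin k → ℂ) ∈ S.toSubmodule := by
      rw [h1]; trivial
    obtain ⟨c, hc⟩ := Submodule.mem_span_singleton.1 h2
    have h4 := congrFun hc ⟨1, by omega⟩
    simp [e, Pi.single_apply] at h4

end CfsgL.Sz
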