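import Cfsg.Agent.L.Sz.Eig

/-! Semidirect products of Suzuki groups with powers of the natural module. -/

set_option autoImplicit false

namespace CfsgL.Sz

open Subgroup

/-- a bare copy of `Fin n` -/
structure FinCopy (n : ℕ) where
  /-- the value -/
  val : Fin n

/-- the equivalence with `Fin n` -/
def finCopyEquiv (n : ℕ) : FinCopy n ≃ Fin n := ⟨FinCopy.val, FinCopy.mk, fun _ => rfl, fun _ => rfl⟩

instance finCopyFintype (n : ℕ) : Fintype (FinCopy n) := Fintype.ofEquiv _ (finCopyEquiv n).symm

theorem exists_type_zero (G : Type*) [Group G] [Finite G] :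
    ∃ (H : Type) (_ : Group H) (_ : Fintype H), Nonempty (G ≃* H) := by
  let e := (Finite.equivFin G).trans (finCopyEquiv _).symm
  letI : Group (FinCopy (Nat.card G)) := e.symm.group
  exact ⟨FinCopy (Nat.card G), inferInstance, inferInstance, ⟨e.symm.mulEquiv.symm⟩⟩

variable {F : Type*} [Field F] [Fintype F] {m : ℕ} [CharP F 2] [hF : Fact (Fintype.card F = 2 ^ (2 * m + 1))]

theorem val_mul_inv (g : Gz F m) (w : Fin 4 → F) : g.1.1.mulVec ((g⁻¹).1.1.mulVec w) = w := by
  have h : g * g⁻¹ = 1 := mul_inv_cancel g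
  have h1 : g.1.1 * (g⁻¹).1.1 = 1 := congrArg (fun z : Gz F m => z.1.1) h
  rw [Matrix.mulVec_mulVec, h1, Matrix.one_mulVec]

theorem val_inv_mul (g : Gz F m) (w : Fin 4 → F) : (g⁻¹).1.1.mulVec (g.1.1.mulVec w) = w := by
  have h : g⁻¹ * g = 1 := inv_mul_cancel g
  have h1 : (g⁻¹).1.1 * g.1.1 = 1 := congrArg (fun z : Gz F m => z.1.1) h
  rw [Matrix.mulVec_mulVec, h1, Matrix.one_mulVec]

variable (F m) in
/-- the action on `V^n` -/
def act (n : ℕ) : Gz F m →* MulAut (Multiplicative (Fin n → Fin 4 → F)) where
  toFun g := {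
    toFun := fun w => Multiplicative.ofAdd (fun i => g.1.1.mulVec (w.toAdd i))
    invFun := fun w => Multiplicative.ofAdd (fun i => (g⁻¹).1.1.mulVec (w.toAdd i))
    left_inv := fun w => by
      apply Multiplicative.toAdd.injective
      funext i
      exact val_inv_mul g _
    right_inv := fun w => by
      apply Multiplicative.toAdd.injective
      funext i
      exact val_mul_inv g _
    map_mul' := fun w w' => by
      apply Multiplicative.toAdd.injective
      funext i
      exact Matrix.mulVec_add g.1.1 (w.toAdd i) (w'.toAdd i) }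
  map_one' := by
    apply MulEquiv.ext
    intro w
    apply Multiplicative.toAdd.injective
    funext i
    exact Matrix.one_mulVec (w.toAdd i)
  map_mul' g h := by
    apply MulEquiv.ext
    intro w
    apply Multiplicative.toAdd.injective
    funext i
    exact (Matrix.mulVec_mulVec (w.toAdd i) g.1.1 h.1.1).symm

section
variable [hm : Fact (1 ≤ m)]

theorem act_fix {n : ℕ} {g : Gz F m} {s : ℕ} (hs : s.Prime) (hs2 : s ≠ 2) (hg : orderOf g = s)
    {w : Multiplicative (Fin n → Fin 4 → F)} (hw : act F m n g w = w) : w = 1 := by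
  apply Multiplicative.toAdd.injective
  funext i
  have h1 := congrFun (congrArg Multiplicative.toAdd hw) i
  exact no_eig hs hs2 hg h1

theorem sq_one {n : ℕ} (w : Multiplicative (Fin n → Fin 4 → F)) : w * w = 1 := by
  apply Multiplicative.toAdd.injective
  funext i j
  exact two0 _

theorem odd_cent {g c : Gz F m} {s : ℕ} (hs : s.Prime) (hs2 : s ≠ 2) (hg : orderOf g = s)
    (hc : c * g = g * c) (hc2 : c * c = 1) : c = 1 := by
  by_contra hc1
  have hg1 : g ≠ 1 := by
    rintro rfl
    rw [orderOf_one] at hg
    exact hs.one_lt.ne hg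
  -- `g` centralizes the involution `c`, so `g` is a 2-element
  have h1 : orderOf c = 2 := orderOf_eq_prime (by rw [pow_two, hc2]) hc1
  rcases tri c with ⟨x, a, b, rfl⟩ | ⟨x, j, hj, rfl⟩ | h
  · have h2 : u m a b ≠ 1 := by
      intro h; apply hc1; rw [h]; group
    have h3 : x⁻¹ * g * x ∈ QQ F m := by
      apply cent_QQ (u_mem_QQ a b) h2
      calc x⁻¹ * g * x * u m a b = x⁻¹ * (g * (x * u m a b * x⁻¹)) * x := by group
        _ = x⁻¹ * (x * u m a b * x⁻¹ * g) * x := by rw [hc]
        _ = _ := by group
    have h4 : s ∣ 4 := by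
      rw [← hg]
      apply order_QQ (x := x⁻¹)
      rwa [inv_inv]
    have h5 : s ∣ 2 := hs.dvd_of_dvd_pow (n := 2) h4
    exact hs2 ((Nat.prime_dvd_prime_iff_eq hs Nat.prime_two).1 h5)
  · have h2 : orderOf (x * hh m j * x⁻¹) ∣ Nat.card F - 1 := by
      apply orderOf_dvd_of_pow_eq_one
      rw [conj_pow, hh_pow_card]; group
    rw [h1] at h2
    obtain ⟨k, hk⟩ := card_F_even (F := F) (m := m)
    have := card_F_ge (F := F) (m := m)
    omega
  · have h2 := Fpf.order_dvd h
    rw [h1] at h2
    exact absurd (odd_of_dvd (card_F_even (F := F) (m := m)) h2) (by decide)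

instance semi_finite {n : ℕ} : Finite (Multiplicative (Fin n → Fin 4 → F) ⋊[act F m n] Gz F m) :=
  Finite.of_equiv _ SemidirectProduct.equivProd.symm

open SemidirectProduct in
theorem semi_order {n : ℕ} {r s : ℕ} (hr : r.Prime) (hs : s.Prime) (hrs : r ≠ s) :
    (∃ x : Gz F m, orderOf x = r * s) ↔
      ∃ y : Multiplicative (Fin n → Fin 4 → F) ⋊[act F m n] Gz F m, orderOf y = r * s := by
  constructor
  · rintro ⟨x, hx⟩
    exact ⟨inr x, by rw [orderOf_injective _ inr_injective, hx]⟩
  · rintro ⟨y, hy⟩
    have hcop : Nat.Coprime r s := (Nat.coprime_primes hr hs).2 hrs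
    have main : ∀ s : ℕ, s.Prime → s ≠ 2 →
        ¬ ∃ y : Multiplicative (Fin n → Fin 4 → F) ⋊[act F m n] Gz F m, orderOf y = 2 * s := by
      rintro s hs hs2 ⟨y, hy⟩
      obtain ⟨a, ha⟩ : ∃ a, a = y ^ 2 := ⟨_, rfl⟩
      obtain ⟨b, hb⟩ : ∃ b, b = y ^ s := ⟨_, rfl⟩
      have hao : orderOf a = s := by
        rw [ha, orderOf_pow, hy, Nat.gcd_eq_right (dvd_mul_right 2 s), Nat.mul_div_cancel_left _ (by norm_num)]
      have hbo : orderOf b = 2 := by
        rw [hb, orderOf_pow, hy, Nat.gcd_eq_right (dvd_mul_left s 2), Nat.mul_div_cancel _ hs.pos]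
      have hab : b * a = a * b := by rw [ha, hb, ← pow_add, ← pow_add, add_comm]
      -- image of `a`
      have hra : orderOf (rightHom a) = s := by
        have h1 : orderOf (rightHom a) ∣ s := by
          rw [← hao]; exact orderOf_map_dvd _ _
        rcases (Nat.dvd_prime hs).1 h1 with h2 | h2
        · exfalso
          rw [orderOf_eq_one_iff] at h2
          have h3 : a * a = 1 := by
            have : a = inl a.left := SemidirectProduct.ext rfl (by rw [right_inl]; exact h2)
            rw [this, ← map_mul, sq_one, map_one]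
          have h4 : s ∣ 2 := by
            rw [← hao]; exact orderOf_dvd_of_pow_eq_one (by rw [pow_two, h3])
          exact hs2 ((Nat.prime_dvd_prime_iff_eq hs Nat.prime_two).1 h4)
        · exact h2
      have hrb : rightHom b = 1 := by
        apply odd_cent hs hs2 hra
        · rw [← map_mul, ← map_mul, hab]
        · rw [← map_mul, ← pow_two, ← hbo, pow_orderOf_eq_one, map_one]
      have hb' : b = inl b.left := SemidirectProduct.ext rfl (by rw [right_inl]; exact hrb)
      have hfix : act F m n a.right b.left = b.left := by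
        have h1 := congrArg SemidirectProduct.left hab
        rw [mul_left, mul_left] at h1
        have h2 : b.right = 1 := hrb
        rw [h2, map_one, MulAut.one_apply, mul_comm] at h1
        exact (mul_left_cancel h1).symm
      have h3 := act_fix hs hs2 (show orderOf a.right = s from hra) hfix
      rw [h3, map_one] at hb'
      rw [hb', orderOf_one] at hbo
      exact absurd hbo (by norm_num)
    by_cases hr2 : r = 2
    · subst hr2
      exact absurd ⟨y, hy⟩ (main s hs (Ne.symm hrs))
    by_cases hs2 : s = 2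
    · subst hs2
      exact absurd ⟨y, by rw [hy, mul_comm]⟩ (main r hr hr2)
    -- both odd
    refine ⟨rightHom y, ?_⟩
    apply Nat.dvd_antisymm
    · rw [← hy]; exact orderOf_map_dvd _ _
    · have h1 : (y ^ orderOf (rightHom y)).right = 1 := by
        change rightHom (y ^ orderOf (rightHom y)) = 1
        rw [map_pow, pow_orderOf_eq_one]
      have h2 : y ^ (orderOf (rightHom y) * 2) = 1 := by
        rw [pow_mul, pow_two]
        have : y ^ orderOf (rightHom y) = inl (y ^ orderOf (rightHom y)).left :=
          SemidirectProduct.ext rfl (by rw [right_inl]; exact h1)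
        rw [this, ← map_mul, sq_one, map_one]
      have h3 : r * s ∣ orderOf (rightHom y) * 2 := by
        rw [← hy]; exact orderOf_dvd_of_pow_eq_one h2
      have h4 : Nat.Coprime (r * s) 2 :=
        Nat.Coprime.mul_left ((Nat.coprime_primes hr Nat.prime_two).2 hr2) ((Nat.coprime_primes hs Nat.prime_two).2 hs2)
      exact h4.dvd_of_dvd_mul_right h3

end

end CfsgL.Sz
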