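import Cfsg.Agent.L.Sz.Sub7

/-! Normalizers of tori in the Suzuki groups: counting involutions and elements of order four. -/

set_option autoImplicit false
set_option maxHeartbeats 400000

namespace CfsgL.Sz

open Subgroup CfsgL.Odd

variable {F : Type*} [Field F] [Fintype F] {m : ℕ} [CharP F 2] [hF : Fact (Fintype.card F = 2 ^ (2 * m + 1))]
variable [hm : Fact (1 ≤ m)]

/-- normalizer of the centralizer -/
def Nn (g : Gz F m) : Subgroup (Gz F m) := normalizer ((centralizer {g} : Subgroup (Gz F m)) : Set (Gz F m))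

theorem cent_le_Nn (g : Gz F m) : centralizer {g} ≤ Nn g := le_normalizer

theorem self_cent (g : Gz F m) : g ∈ centralizer {g} := mem_centralizer_singleton_iff.2 rfl

theorem Nn_card {g : Gz F m} (hg : g ≠ 1) (ho : Odd (orderOf g)) :
    (Nat.card (Nn g) = 2 * Nat.card (centralizer {g}) ∧ Nat.card (centralizer {g}) = Nat.card F - 1) ∨
    (Nat.card (Nn g) = 4 * Nat.card (centralizer {g}) ∧ Fpf g) := by
  rcases tri g with ⟨x, a, b, h⟩ | ⟨x, j, hj, h⟩ | h
  · exfalso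
    refine odd_not_QQ (x := x⁻¹) hg ho ?_
    rw [h]
    have : x⁻¹ * (x * u m a b * x⁻¹) * x⁻¹⁻¹ = u m a b := by group
    rw [this]; exact u_mem_QQ a b
  · left
    obtain ⟨e⟩ := cent_conj_equiv x (hh m j)
    rw [Nn, h, norm_conj_card, Nat.card_congr e.toEquiv, cent_hh hj, card_norm_KK, card_KK]
    exact ⟨rfl, rfl⟩
  · right
    exact ⟨norm_fpf h, h⟩

theorem Nn_card' {g : Gz F m} (hg : g ≠ 1) (ho : Odd (orderOf g)) :
    ∃ n, (n = 2 ∨ n = 4) ∧ Nat.card (Nn g) = n * Nat.card (centralizer {g}) := by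
  rcases Nn_card hg ho with ⟨h, -⟩ | ⟨h, -⟩
  · exact ⟨2, Or.inl rfl, h⟩
  · exact ⟨4, Or.inr rfl, h⟩

theorem relIndex_Nn {g : Gz F m} {n : ℕ} (h : Nat.card (Nn g) = n * Nat.card (centralizer {g})) :
    (centralizer {g}).relIndex (Nn g) = n := by
  have h6 := relIndex_card (cent_le_Nn g)
  rw [h] at h6
  exact Nat.eq_of_mul_eq_mul_right Nat.card_pos h6

theorem normal_Nn (g : Gz F m) : ((centralizer {g}).subgroupOf (Nn g)).Normal := normal_in_normalizer

theorem pow_four_mem {g x : Gz F m} (hg : g ≠ 1) (ho : Odd (orderOf g)) (hx : x ∈ Nn g) :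
    x ^ 4 ∈ centralizer {g} := by
  obtain ⟨n, hn, hN⟩ := Nn_card' hg ho
  have h1 := relIndex_Nn hN
  haveI := normal_Nn g
  have h2 : (⟨x, hx⟩ : Nn g) ^ n ∈ (centralizer {g}).subgroupOf (Nn g) := by
    rw [← QuotientGroup.eq_one_iff, QuotientGroup.mk_pow]
    have h3 : Nat.card (Nn g ⧸ (centralizer {g}).subgroupOf (Nn g)) = n := h1
    rw [← h3]
    exact pow_card_eq_one'
  have h3 : x ^ n ∈ centralizer {g} := h2
  have h4 : n ∣ 4 := by rcases hn with rfl | rfl <;> decide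
  obtain ⟨l, hl⟩ := h4
  have h5 : x ^ 4 = (x ^ n) ^ l := by rw [← pow_mul, ← hl]
  rw [h5]
  exact pow_mem h3 l

theorem odd_mem_cent {g x : Gz F m} (hg : g ≠ 1) (ho : Odd (orderOf g)) (hx : x ∈ Nn g) (hxo : Odd (orderOf x)) :
    x ∈ centralizer {g} := by
  have h1 := pow_four_mem hg ho hx
  have h2 : Nat.Coprime 4 (orderOf x) := by
    have : Nat.Coprime (2 ^ 2) (orderOf x) := Nat.Coprime.pow_left _ (Nat.coprime_two_left.2 hxo)
    exact this
  obtain ⟨l, hl⟩ := exists_pow_eq_self_of_coprime h2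
  rw [← hl]
  exact pow_mem h1 l

theorem two_type {g x : Gz F m} (hg : g ≠ 1) (ho : Odd (orderOf g)) (hx : x ∈ Nn g) (hxC : x ∉ centralizer {g}) :
    x ∈ cc (QQ F m) := by
  have hx1 : x ≠ 1 := by rintro rfl; exact hxC (one_mem _)
  refine ⟨hx1, ?_⟩
  rcases cent_tri hx1 with h | ⟨-, hcard⟩
  · exact h
  · exfalso
    apply hxC
    apply odd_mem_cent hg ho hx
    have h1 : Even (2 ^ (m + 1)) := by rw [pow_succ]; exact even_two.mul_left _
    obtain ⟨r, hr'⟩ := h1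
    obtain ⟨s, hs⟩ := card_F_even (F := F) (m := m)
    have h8 := card_F_ge (F := F) (m := m)
    have h9 : Odd (Nat.card (centralizer {x})) := by
      rcases hcard with h | ⟨-, h | h⟩
      · exact ⟨s - 1, by omega⟩
      · exact ⟨s + r, by omega⟩
      · exact ⟨s - r, by omega⟩
    exact h9.of_dvd_nat (Subgroup.orderOf_dvd_natCard _ (self_cent x))

theorem cc_QQ_not_odd {x : Gz F m} (hx : x ∈ cc (QQ F m)) : ¬ Odd (orderOf x) := by
  obtain ⟨h1, y, hy⟩ := hx
  exact fun ho => odd_not_QQ h1 ho hy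

theorem not_cent {g x : Gz F m} (hg : g ≠ 1) (ho : Odd (orderOf g)) (hx : x ∈ cc (QQ F m)) : x ∉ centralizer {g} :=
  fun h => cc_QQ_not_odd hx ((cent_odd hg ho).2.of_dvd_nat (Subgroup.orderOf_dvd_natCard _ h))

theorem invol_not_cent {g z : Gz F m} (hg : g ≠ 1) (ho : Odd (orderOf g)) (hz1 : z ≠ 1) (hzz : z * z = 1) :
    z ∉ centralizer {g} := by
  intro h
  have h1 : Odd (orderOf z) := (cent_odd hg ho).2.of_dvd_nat (Subgroup.orderOf_dvd_natCard _ h)
  have h2 : orderOf z ∣ 2 := orderOf_dvd_of_pow_eq_one (by rw [pow_two, hzz])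
  rcases (Nat.dvd_prime Nat.prime_two).1 h2 with h | h
  · exact hz1 (orderOf_eq_one_iff.1 h)
  · rw [h] at h1; exact absurd h1 (by decide)

theorem inverts {g z : Gz F m} (hg : g ≠ 1) (ho : Odd (orderOf g)) (hz : z ∈ Nn g) (hz1 : z ≠ 1) (hzz : z * z = 1)
    {c : Gz F m} (hc : c ∈ centralizer {g}) : z * c * z⁻¹ = c⁻¹ := by
  have hzi : z⁻¹ = z := by rw [inv_eq_iff_mul_eq_one]; exact hzz
  have hzC := invol_not_cent hg ho hz1 hzz
  have hconj : ∀ s ∈ centralizer {g}, z * s * z⁻¹ ∈ centralizer {g} := fun s hs => (mem_nrm.1 hz s).1 hs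
  have hinj : Function.Injective (fun s : (centralizer {g} : Subgroup (Gz F m)) =>
      (⟨(s : Gz F m)⁻¹ * (z * s * z⁻¹), mul_mem (inv_mem s.2) (hconj s s.2)⟩ :
        (centralizer {g} : Subgroup (Gz F m)))) := by
    intro s t h
    have h1 : (s : Gz F m)⁻¹ * (z * s * z⁻¹) = (t : Gz F m)⁻¹ * (z * t * z⁻¹) := congrArg Subtype.val h
    by_contra hne
    have h2 : (t : Gz F m) * (s : Gz F m)⁻¹ ≠ 1 := by
      intro h3
      rw [mul_inv_eq_one] at h3
      exact hne (Subtype.ext h3.symm)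
    have h3 : (t : Gz F m) * (s : Gz F m)⁻¹ ∈ centralizer {g} := mul_mem t.2 (inv_mem s.2)
    have h4 : z * ((t : Gz F m) * (s : Gz F m)⁻¹) = (t : Gz F m) * (s : Gz F m)⁻¹ * z := by
      calc z * ((t : Gz F m) * (s : Gz F m)⁻¹) = (z * t * z⁻¹) * (z * s * z⁻¹)⁻¹ * z := by group
        _ = t * ((t : Gz F m)⁻¹ * (z * t * z⁻¹)) * (z * s * z⁻¹)⁻¹ * z := by group
        _ = t * ((s : Gz F m)⁻¹ * (z * s * z⁻¹)) * (z * s * z⁻¹)⁻¹ * z := by rw [h1]
        _ = (t : Gz F m) * (s : Gz F m)⁻¹ * z := by group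
    apply hzC
    rw [← cent_eq_of_odd hg ho h3 h2, mem_centralizer_singleton_iff]
    exact h4
  obtain ⟨s, hs⟩ := Finite.surjective_of_injective hinj ⟨c, hc⟩
  have hs' : (s : Gz F m)⁻¹ * (z * s * z⁻¹) = c := congrArg Subtype.val hs
  rw [← hs']
  calc z * ((s : Gz F m)⁻¹ * (z * s * z⁻¹)) * z⁻¹ = z * (s : Gz F m)⁻¹ * z * s * (z⁻¹ * z⁻¹) := by group
    _ = z * (s : Gz F m)⁻¹ * z * s := by rw [hzi, hzz, mul_one]
    _ = z * (s : Gz F m)⁻¹ * z⁻¹ * s := by rw [hzi]
    _ = ((s : Gz F m)⁻¹ * (z * s * z⁻¹))⁻¹ := by group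

theorem exists_invol {g : Gz F m} (hg : g ≠ 1) (ho : Odd (orderOf g)) : ∃ z ∈ Nn g, z ≠ 1 ∧ z * z = 1 := by
  haveI : Fact (Nat.Prime 2) := ⟨Nat.prime_two⟩
  obtain ⟨n, hn, hN⟩ := Nn_card' hg ho
  have h1 : 2 ∣ Nat.card (Nn g) := by
    rw [hN]
    rcases hn with rfl | rfl
    · exact dvd_mul_right _ _
    · exact Dvd.dvd.mul_right (by decide) _
  obtain ⟨t, ht⟩ := exists_prime_orderOf_dvd_card' (G := Nn g) 2 h1
  refine ⟨t, t.2, ?_, ?_⟩
  · intro h
    have : t = 1 := Subtype.ext h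
    rw [this, orderOf_one] at ht
    omega
  · have := pow_orderOf_eq_one t
    rw [ht, pow_two] at this
    exact congrArg Subtype.val this

theorem invol_count {g : Gz F m} (hg : g ≠ 1) (ho : Odd (orderOf g)) :
    {z : Gz F m | z ∈ Nn g ∧ z ≠ 1 ∧ z * z = 1}.ncard = Nat.card (centralizer {g}) := by
  obtain ⟨z, hz, hz1, hzz⟩ := exists_invol hg ho
  have hzi : z⁻¹ = z := by rw [inv_eq_iff_mul_eq_one]; exact hzz
  rw [← Nat.card_coe_set_eq]
  symm
  refine Nat.card_congr (Equiv.ofBijective (fun s : (centralizer {g} : Subgroup (Gz F m)) =>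
    (⟨s * z, ?_⟩ : {z : Gz F m | z ∈ Nn g ∧ z ≠ 1 ∧ z * z = 1})) ⟨?_, ?_⟩)
  · refine ⟨mul_mem (cent_le_Nn g s.2) hz, ?_, ?_⟩
    · intro h
      rw [mul_eq_one_iff_eq_inv, hzi] at h
      exact invol_not_cent hg ho hz1 hzz (h ▸ s.2)
    · have h1 := inverts hg ho hz hz1 hzz s.2
      calc (s : Gz F m) * z * (s * z) = s * (z * s * z⁻¹) * (z * z) := by group
        _ = 1 := by rw [h1, hzz]; group
  · intro s t h
    have h1 : (s : Gz F m) * z = t * z := congrArg Subtype.val h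
    exact Subtype.ext (mul_right_cancel h1)
  · rintro ⟨y, hy, hy1, hyy⟩
    have h1 : y * z ∈ centralizer {g} := by
      rw [mem_centralizer_singleton_iff]
      have h2 := inverts hg ho hz hz1 hzz (self_cent g)
      have h3 := inverts hg ho hy hy1 hyy (inv_mem (self_cent g))
      rw [inv_inv] at h3
      calc y * z * g = y * (z * g * z⁻¹) * z := by group
        _ = y * g⁻¹ * y⁻¹ * y * z := by rw [h2]; group
        _ = g * (y * z) := by rw [h3]; group
    refine ⟨⟨y * z, h1⟩, ?_⟩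
    apply Subtype.ext
    change y * z * z = y
    rw [mul_assoc, hzz, mul_one]

theorem invol_cc {z : Gz F m} (hz1 : z ≠ 1) (hzz : z * z = 1) : z ∈ cc (QQ F m) := by
  refine ⟨hz1, ?_⟩
  rcases cent_tri hz1 with h | ⟨-, hcard⟩
  · exact h
  · exfalso
    have h1 : Even (2 ^ (m + 1)) := by rw [pow_succ]; exact even_two.mul_left _
    obtain ⟨r, hr'⟩ := h1
    obtain ⟨s, hs⟩ := card_F_even (F := F) (m := m)
    have h8 := card_F_ge (F := F) (m := m)
    have h9 : Odd (Nat.card (centralizer {z})) := by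
      rcases hcard with h | ⟨-, h | h⟩
      · exact ⟨s - 1, by omega⟩
      · exact ⟨s + r, by omega⟩
      · exact ⟨s - r, by omega⟩
    have h1 := h9.of_dvd_nat (Subgroup.orderOf_dvd_natCard _ (self_cent z))
    have h2 : orderOf z ∣ 2 := orderOf_dvd_of_pow_eq_one (by rw [pow_two, hzz])
    rcases (Nat.dvd_prime Nat.prime_two).1 h2 with h | h
    · exact hz1 (orderOf_eq_one_iff.1 h)
    · rw [h] at h1; exact absurd h1 (by decide)

/-- involutions and elements of order four -/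
def X2 (F : Type*) [Field F] (m : ℕ) [CharP F 2] [Fintype F] [Fact (Fintype.card F = 2 ^ (2 * m + 1))] :
    Set (Gz F m) := {z | z ≠ 1 ∧ z * z = 1}

def X4 (F : Type*) [Field F] (m : ℕ) [CharP F 2] [Fintype F] [Fact (Fintype.card F = 2 ^ (2 * m + 1))] :
    Set (Gz F m) := {z | z ∈ cc (QQ F m) ∧ z * z ≠ 1}

theorem X4_count {g : Gz F m} (hg : g ≠ 1) (ho : Odd (orderOf g)) {n : ℕ}
    (hN : Nat.card (Nn g) = n * Nat.card (centralizer {g})) :
    {z : Gz F m | z ∈ Nn g ∧ z ∈ X4 F m}.ncard + 2 * Nat.card (centralizer {g}) = n * Nat.card (centralizer {g}) := by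
  have h1 : {z : Gz F m | z ∈ Nn g ∧ z ∈ X4 F m} ∪ ({z : Gz F m | z ∈ Nn g ∧ z ≠ 1 ∧ z * z = 1} ∪
      ((centralizer {g} : Subgroup (Gz F m)) : Set (Gz F m))) = (Nn g : Set (Gz F m)) := by
    ext z
    constructor
    · rintro (h | h | h)
      · exact h.1
      · exact h.1
      · exact cent_le_Nn g h
    · intro hz
      by_cases hzC : z ∈ centralizer {g}
      · exact Or.inr (Or.inr hzC)
      · have h2 := two_type hg ho hz hzC
        by_cases hzz : z * z = 1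
        · exact Or.inr (Or.inl ⟨hz, h2.1, hzz⟩)
        · exact Or.inl ⟨hz, h2, hzz⟩
  have hd1 : Disjoint {z : Gz F m | z ∈ Nn g ∧ z ≠ 1 ∧ z * z = 1}
      ((centralizer {g} : Subgroup (Gz F m)) : Set (Gz F m)) := by
    rw [Set.disjoint_left]
    rintro z ⟨-, h2, h3⟩ h4
    exact invol_not_cent hg ho h2 h3 h4
  have hd2 : Disjoint {z : Gz F m | z ∈ Nn g ∧ z ∈ X4 F m} ({z : Gz F m | z ∈ Nn g ∧ z ≠ 1 ∧ z * z = 1} ∪
      ((centralizer {g} : Subgroup (Gz F m)) : Set (Gz F m))) := by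
    rw [Set.disjoint_left]
    rintro z ⟨-, h2, h3⟩ (h4 | h4)
    · exact h3 h4.2.2
    · exact not_cent hg ho h2 h4
  have h2 := congrArg Set.ncard h1
  rw [Set.ncard_union_eq hd2, Set.ncard_union_eq hd1, invol_count hg ho] at h2
  have h3 : ((centralizer {g} : Subgroup (Gz F m)) : Set (Gz F m)).ncard = Nat.card (centralizer {g}) := rfl
  have h4 : (Nn g : Set (Gz F m)).ncard = Nat.card (Nn g) := rfl
  rw [h3, h4, hN] at h2
  omega

theorem two_sub_QQ {D : Subgroup (Gz F m)} (hD : IsPGroup 2 D) {x : Gz F m} (hx : x ∈ QQ F m) (hx1 : x ≠ 1)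
    (hxD : x ∈ D) : D ≤ QQ F m := by
  obtain ⟨P, hP⟩ := hD.exists_le_sylow
  have h1 : P = QSyl F m := sylow_eq hx1 (hP hxD) hx
  rw [h1, coe_QSyl] at hP
  exact hP

theorem uniq {x y g g' : Gz F m} (hx : x ∈ QQ F m) (hx1 : x ≠ 1) (hy : y ∉ BB F m) (hg : g ≠ 1)
    (ho : Odd (orderOf g)) (hg' : g' ≠ 1) (ho' : Odd (orderOf g')) (h1 : x ∈ Nn g) (h2 : y ∈ Nn g)
    (h3 : x ∈ Nn g') (h4 : y ∈ Nn g') : centralizer {g} = centralizer {g'} := by
  by_cases h : ∃ d ∈ Nn g ⊓ Nn g', d ≠ 1 ∧ Odd (orderOf d)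
  · obtain ⟨d, ⟨hd, hd'⟩, hd1, hdo⟩ := h
    rw [← cent_eq_of_odd hg ho (odd_mem_cent hg ho hd hdo) hd1,
      ← cent_eq_of_odd hg' ho' (odd_mem_cent hg' ho' hd' hdo) hd1]
  · exfalso
    push Not at h
    have hD : IsPGroup 2 (Nn g ⊓ Nn g' : Subgroup (Gz F m)) := by
      rintro ⟨d, hd⟩
      refine ⟨2, ?_⟩
      apply Subtype.ext
      change d ^ 4 = 1
      by_cases hd1 : d = 1
      · rw [hd1, one_pow]
      · have hdC : d ∉ centralizer {g} := fun hC =>
          h d hd hd1 ((cent_odd hg ho).2.of_dvd_nat (Subgroup.orderOf_dvd_natCard _ hC))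
        obtain ⟨-, z, hz⟩ := two_type hg ho hd.1 hdC
        exact orderOf_dvd_iff_pow_eq_one.1 (order_QQ hz)
    exact hy (QQ_le_BB (two_sub_QQ hD hx hx1 ⟨h1, h3⟩ ⟨h2, h4⟩))

/-- the intersection with the Borel subgroup -/
theorem Nn_BB {x g : Gz F m} (hx : x ∈ QQ F m) (hx1 : x ≠ 1) (hg : g ≠ 1)
    (ho : Odd (orderOf g)) (h1 : x ∈ Nn g) {n : ℕ} (hn : n = 2 ∨ n = 4)
    (hN : Nat.card (Nn g) = n * Nat.card (centralizer {g})) : Nat.card (Nn g ⊓ BB F m : Subgroup (Gz F m)) = n := by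
  haveI : Fact (Nat.Prime 2) := ⟨Nat.prime_two⟩
  have hxinf : x • pinf F m = pinf F m := mem_BB.1 (QQ_le_BB hx)
  -- trivial intersection with the centralizer
  have htriv : ∀ c ∈ centralizer {g}, c ∈ BB F m → c = 1 := by
    intro c hc hcB
    by_contra hc1
    have hco : Odd (orderOf c) := (cent_odd hg ho).2.of_dvd_nat (Subgroup.orderOf_dvd_natCard _ hc)
    have hcf : ¬ Fpf c := fun h => h _ (mem_BB.1 hcB)
    have hC := cent_eq_of_odd hg ho hc hc1
    -- `c` has exactly two fixed points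
    obtain ⟨y, j, hj, hcj⟩ : ∃ (y : Gz F m) (j : Fˣ), j ≠ 1 ∧ c = y * hh m j * y⁻¹ := by
      rcases tri c with ⟨y, a, b, h⟩ | ⟨y, j, hj, h⟩ | h
      · exfalso
        refine odd_not_QQ (x := y⁻¹) hc1 hco ?_
        rw [h]
        have : y⁻¹ * (y * u m a b * y⁻¹) * y⁻¹⁻¹ = u m a b := by group
        rw [this]; exact u_mem_QQ a b
      · exact ⟨y, j, hj, h⟩
      · exact absurd h hcf
    -- the normalizer of the centralizer is the normalizer of the conjugate of KK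
    have hxN : x ∈ Nn c := by rw [Nn, hC]; exact h1
    have h2 : y⁻¹ * x * y ∈ normalizer (KK F m : Set (Gz F m)) := by
      have h3 : ∀ t, t ∈ centralizer {c} ↔ y⁻¹ * t * y ∈ KK F m := by
        intro t
        rw [hcj, mem_conj_cent, cent_hh hj]
      rw [mem_nrm]
      intro t
      have h4 := mem_nrm.1 hxN (y * t * y⁻¹)
      rw [h3, h3] at h4
      have e1 : y⁻¹ * (y * t * y⁻¹) * y = t := by group
      have e2 : y⁻¹ * (x * (y * t * y⁻¹) * x⁻¹) * y = y⁻¹ * x * y * t * (y⁻¹ * x * y)⁻¹ := by group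
      rwa [e1, e2] at h4
    have hcinf : hh m j • (y⁻¹ • pinf F m) = y⁻¹ • pinf F m := by
      have h5 := mem_BB.1 hcB
      rw [hcj, mul_smul, mul_smul] at h5
      rw [eq_inv_smul_iff]; exact h5
    have hyp := hh_fix' hj hcinf
    have hxy : (y⁻¹ * x * y) • (y⁻¹ • pinf F m) = y⁻¹ • pinf F m := by
      rw [← mul_smul]
      have : y⁻¹ * x * y * y⁻¹ = y⁻¹ * x := by group
      rw [this, mul_smul, hxinf]
    rcases mem_norm_KK.1 h2 with ⟨i, hi⟩ | ⟨i, hi⟩
    · have h6 : orderOf x = orderOf (hh m i) := by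
        rw [← hi]
        have := orderOf_conj' y⁻¹ x
        rw [inv_inv] at this
        exact this.symm
      have h7 : Odd (orderOf x) := by rw [h6, orderOf_hh]; exact orderOf_unit_odd m i
      exact odd_not_QQ (x := 1) hx1 h7 (by rw [one_mul, inv_one, mul_one]; exact hx)
    · rw [hi] at hxy
      rcases hyp with hyp | hyp
      · rw [hyp, mul_smul, ww_inf, hh_zero] at hxy
        exact pp_ne_inf _ _ hxy
      · rw [hyp, mul_smul, ww_zero, hh_inf] at hxy
        exact pp_ne_inf _ _ hxy.symm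
  apply le_antisymm
  · -- upper bound
    have h3 : ((centralizer {g}).subgroupOf (Nn g ⊓ BB F m)) = ⊥ := by
      rw [eq_bot_iff]
      rintro ⟨c, hc⟩ hcC
      rw [mem_bot]
      exact Subtype.ext (htriv c (mem_subgroupOf.1 hcC) hc.2)
    have h4 : (centralizer {g}).relIndex (Nn g ⊓ BB F m) = Nat.card (Nn g ⊓ BB F m : Subgroup (Gz F m)) := by
      rw [relIndex, h3, index_bot]
    haveI := normal_Nn g
    have h5 : (centralizer {g}).relIndex (Nn g ⊓ BB F m) ∣ (centralizer {g}).relIndex (Nn g) := by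
      have h6 : (centralizer {g}).relIndex (Nn g ⊓ BB F m) =
          ((centralizer {g}).subgroupOf (Nn g)).relIndex ((Nn g ⊓ BB F m).subgroupOf (Nn g)) := by
        rw [relIndex_subgroupOf inf_le_left]
      rw [h6]
      exact relIndex_dvd_index_of_normal _ _
    rw [h4, relIndex_Nn hN] at h5
    exact Nat.le_of_dvd (by omega) h5
  · -- lower bound
    have hxp : IsPGroup 2 (zpowers (⟨x, h1⟩ : Nn g)) := by
      have h6 : orderOf (⟨x, h1⟩ : Nn g) ∣ 2 ^ 2 := by
        rw [← orderOf_coe]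
        exact order_QQ (x := 1) (by rw [one_mul, inv_one, mul_one]; exact hx)
      obtain ⟨k, -, hk⟩ := (Nat.dvd_prime_pow Nat.prime_two).1 h6
      rw [IsPGroup.iff_card]
      exact ⟨k, by rw [Nat.card_zpowers, hk]⟩
    obtain ⟨S, hS⟩ := hxp.exists_le_sylow
    have hS2 : IsPGroup 2 ((S : Subgroup (Nn g)).map (Nn g).subtype) := S.2.map _
    have h7 : (S : Subgroup (Nn g)).map (Nn g).subtype ≤ QQ F m :=
      two_sub_QQ hS2 hx hx1 ⟨⟨x, h1⟩, hS (mem_zpowers _), rfl⟩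
    have h8 : (S : Subgroup (Nn g)).map (Nn g).subtype ≤ Nn g ⊓ BB F m :=
      le_inf (map_subtype_le _) (h7.trans QQ_le_BB)
    have h9 := card_le_of_le h8
    have h10 : Nat.card ((S : Subgroup (Nn g)).map (Nn g).subtype) = Nat.card (S : Subgroup (Nn g)) :=
      (Nat.card_congr ((S : Subgroup (Nn g)).equivMapOfInjective _ (Nn g).subtype_injective).toEquiv).symm
    rw [h10] at h9
    refine le_trans ?_ h9
    have h11 := index_mul_card (S : Subgroup (Nn g))
    rw [hN] at h11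
    have h12 : ¬ 2 ∣ (S : Subgroup (Nn g)).index := S.not_dvd_index
    have h13 : n ∣ Nat.card (S : Subgroup (Nn g)) := by
      have h14 : n ∣ (S : Subgroup (Nn g)).index * Nat.card (S : Subgroup (Nn g)) := by rw [h11]; exact dvd_mul_right _ _
      refine Nat.Coprime.dvd_of_dvd_mul_left ?_ h14
      have h15 : Nat.Coprime 2 (S : Subgroup (Nn g)).index := (Nat.Prime.coprime_iff_not_dvd Nat.prime_two).2 h12
      rcases hn with rfl | rfl
      · exact h15
      · have : Nat.Coprime (2 ^ 2) (S : Subgroup (Nn g)).index := Nat.Coprime.pow_left _ h15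
        exact this
    exact Nat.le_of_dvd Nat.card_pos h13

end CfsgL.Sz
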