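import Cfsg.Agent.L.Sz.Sol1

/-! Double counting of pairs in normalizers of tori. -/

set_option autoImplicit false
set_option maxHeartbeats 400000

namespace CfsgL.Sz

open Subgroup CfsgL.Odd

theorem double_count {A B : Type*} [Finite A] [Finite B] (S : Set A) (T : Set B) (R : A → B → Prop) (α β : ℕ)
    (h1 : ∀ a ∈ S, {b | b ∈ T ∧ R a b}.ncard = α) (h2 : ∀ b ∈ T, {a | a ∈ S ∧ R a b}.ncard = β) :
    S.ncard * α = T.ncard * β := by
  classical
  haveI := Fintype.ofFinite A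
  haveI := Fintype.ofFinite B
  have h := Finset.card_mul_eq_card_mul R (s := S.toFinset) (t := T.toFinset) (m := α) (n := β)
    (fun a ha => ?_) (fun b hb => ?_)
  · rwa [← Set.ncard_eq_toFinset_card', ← Set.ncard_eq_toFinset_card'] at h
  · rw [← h1 a (by simpa using ha), Set.ncard_eq_toFinset_card']
    congr 1
    ext b
    simp [Finset.bipartiteAbove]
  · rw [← h2 b (by simpa using hb), Set.ncard_eq_toFinset_card']
    congr 1
    ext a
    simp [Finset.bipartiteBelow]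

variable {F : Type*} [Field F] [Fintype F] {m : ℕ} [CharP F 2] [hF : Fact (Fintype.card F = 2 ^ (2 * m + 1))]
variable [hm : Fact (1 ≤ m)]

variable (F m) in
/-- elements with centralizer of order `c` -/
def Sc (c : ℕ) : Set (Gz F m) := {g | g ≠ 1 ∧ Odd (orderOf g) ∧ Nat.card (centralizer {g}) = c}

/-- ... normalized by `x` -/
def Bc (x : Gz F m) (c : ℕ) : Set (Gz F m) := {g | g ∈ Sc F m c ∧ x ∈ Nn g}

/-- the elements outside the Borel subgroup -/
def Ac (x : Gz F m) (c : ℕ) : Set (Gz F m) := {y | y ∉ BB F m ∧ ∃ g ∈ Sc F m c, x ∈ Nn g ∧ y ∈ Nn g}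

theorem oddCent_G : OddCent (Gz F m) :=
  ⟨fun _ h ho => (cent_odd h ho).1, fun _ h ho => (cent_odd h ho).2,
    fun _ _ h ho ht ht1 => cent_eq_of_odd h ho ht ht1, fun _ h ho => norm_odd h ho, not_three_dvd⟩

theorem Sc_eq {g : Gz F m} (hg : g ≠ 1) (ho : Odd (orderOf g)) :
    Sc F m (Nat.card (centralizer {g})) = cc (centralizer {g}) := by
  have hM : OddCent (Gz F m) := oddCent_G
  have hC : Cm (centralizer {g}) := ⟨g, hg, ho, rfl⟩
  ext y
  constructor
  · rintro ⟨hy1, hyo, hyc⟩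
    have hC' : Cm (centralizer {y}) := ⟨y, hy1, hyo, rfl⟩
    have h5 := hC.five_le hM
    obtain ⟨p, hp, hpd⟩ := Nat.exists_prime_and_dvd (show Nat.card (centralizer {g}) ≠ 1 by omega)
    obtain ⟨x, hx⟩ := hC.conj_eq hM hC' hp hpd (by rw [hyc]; exact hpd)
    exact ⟨hy1, x, (hx y).1 (self_cent y)⟩
  · intro hy
    obtain ⟨h1, h2⟩ := hC.cc_sub hM hy
    exact ⟨h1, h2, card_cent_cc hM hC hy⟩

theorem Sc_card {g : Gz F m} (hg : g ≠ 1) (ho : Odd (orderOf g)) {n : ℕ}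
    (hN : Nat.card (Nn g) = n * Nat.card (centralizer {g})) :
    n * Nat.card (centralizer {g}) * (Sc F m (Nat.card (centralizer {g}))).ncard =
      Nat.card (Gz F m) * (Nat.card (centralizer {g}) - 1) := by
  have hM : OddCent (Gz F m) := oddCent_G
  have hC : Cm (centralizer {g}) := ⟨g, hg, ho, rfl⟩
  obtain ⟨i, n', -, h1, h2, h3⟩ := hC.cc hM
  have hn : n' = n := by
    have h4 : n' * Nat.card (centralizer {g}) = n * Nat.card (centralizer {g}) := by rw [← h3, ← hN]; rfl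
    exact Nat.eq_of_mul_eq_mul_right Nat.card_pos h4
  rw [Sc_eq hg ho, h2, ← h1, hn]
  ring

theorem dc1 {x : Gz F m} (hx : x ∈ QQ F m) (hx1 : x ≠ 1) {c n : ℕ} (hc : 2 ≤ c) (hn : n = 2 ∨ n = 4)
    (hN : ∀ g ∈ Sc F m c, Nat.card (Nn g) = n * c) : (Ac x c).ncard = n * (Bc x c).ncard := by
  have h := double_count (Ac x c) (Bc x c) (fun y g => y ∈ Nn g) (c - 1) (n * (c - 1)) ?_ ?_
  · have h1 : (Ac x c).ncard * (c - 1) = n * (Bc x c).ncard * (c - 1) := by rw [h]; ring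
    exact Nat.eq_of_mul_eq_mul_right (by omega) h1
  · rintro y ⟨hy, g, ⟨hg1, hgo, hgc⟩, hxg, hyg⟩
    have h1 : {b | b ∈ Bc x c ∧ y ∈ Nn b} = ((centralizer {g} : Subgroup (Gz F m)) : Set (Gz F m)) \ {1} := by
      ext b
      constructor
      · rintro ⟨⟨⟨hb1, hbo, hbc⟩, hxb⟩, hyb⟩
        have h2 := uniq hx hx1 hy hg1 hgo hb1 hbo hxg hyg hxb hyb
        refine ⟨?_, hb1⟩
        change b ∈ centralizer {g}
        rw [h2]; exact self_cent b
      · rintro ⟨hb, hb1⟩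
        have hb1' : b ≠ 1 := hb1
        have h2 := cent_eq_of_odd hg1 hgo hb hb1'
        have h3 : Odd (orderOf b) := (cent_odd hg1 hgo).2.of_dvd_nat (Subgroup.orderOf_dvd_natCard _ hb)
        refine ⟨⟨⟨hb1', h3, by rw [h2, hgc]⟩, ?_⟩, ?_⟩
        · rw [Nn, h2]; exact hxg
        · rw [Nn, h2]; exact hyg
    rw [h1, Set.ncard_sdiff (by simp), Set.ncard_singleton]
    have h2 : ((centralizer {g} : Subgroup (Gz F m)) : Set (Gz F m)).ncard = Nat.card (centralizer {g}) := rfl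
    rw [h2, hgc]
  · rintro g ⟨⟨hg1, hgo, hgc⟩, hxg⟩
    have hNg := hN g ⟨hg1, hgo, hgc⟩
    rw [← hgc] at hNg
    have h1 : {a | a ∈ Ac x c ∧ a ∈ Nn g} = ((Nn g : Subgroup (Gz F m)) : Set (Gz F m)) \
        ((Nn g ⊓ BB F m : Subgroup (Gz F m)) : Set (Gz F m)) := by
      ext y
      constructor
      · rintro ⟨⟨hy, -⟩, hyg⟩
        exact ⟨hyg, fun h => hy h.2⟩
      · rintro ⟨hyg, hy⟩
        exact ⟨⟨fun h => hy ⟨hyg, h⟩, g, ⟨hg1, hgo, hgc⟩, hxg, hyg⟩, hyg⟩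
    have h2 : ((Nn g : Subgroup (Gz F m)) : Set (Gz F m)).ncard = Nat.card (Nn g) := rfl
    have h3 : ((Nn g ⊓ BB F m : Subgroup (Gz F m)) : Set (Gz F m)).ncard =
      Nat.card (Nn g ⊓ BB F m : Subgroup (Gz F m)) := rfl
    rw [h1, Set.ncard_sdiff (fun y hy => hy.1), h2, h3, hNg, Nn_BB hx hx1 hg1 hgo hxg hn hNg, hgc, Nat.mul_sub, mul_one]

theorem Nn_conj {x g z : Gz F m} : x ∈ Nn g ↔ z * x * z⁻¹ ∈ Nn (z * g * z⁻¹) := by
  rw [Nn, Nn, mem_nrm, mem_nrm]
  constructor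
  · intro h t
    rw [mem_conj_cent, mem_conj_cent, h]
    have e1 : x * (z⁻¹ * t * z) * x⁻¹ = z⁻¹ * (z * x * z⁻¹ * t * (z * x * z⁻¹)⁻¹) * z := by group
    rw [e1]
  · intro h t
    have h1 := h (z * t * z⁻¹)
    rw [mem_conj_cent, mem_conj_cent] at h1
    have e1 : z⁻¹ * (z * t * z⁻¹) * z = t := by group
    have e2 : z⁻¹ * (z * x * z⁻¹ * (z * t * z⁻¹) * (z * x * z⁻¹)⁻¹) * z = x * t * x⁻¹ := by group
    rwa [e1, e2] at h1

theorem Sc_conj {g z : Gz F m} {c : ℕ} (h : g ∈ Sc F m c) : z * g * z⁻¹ ∈ Sc F m c := by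
  obtain ⟨h1, h2, h3⟩ := h
  refine ⟨?_, ?_, ?_⟩
  · intro h
    apply h1
    calc g = z⁻¹ * (z * g * z⁻¹) * z := by group
      _ = 1 := by rw [h]; group
  · rw [orderOf_conj']; exact h2
  · obtain ⟨e⟩ := cent_conj_equiv z g
    rw [Nat.card_congr e.toEquiv, h3]

theorem Bc_conj_le (x z : Gz F m) (c : ℕ) : (Bc x c).ncard ≤ (Bc (z * x * z⁻¹) c).ncard := by
  apply Set.ncard_le_ncard_of_injOn (fun g => z * g * z⁻¹)
  · rintro g ⟨h1, h2⟩
    exact ⟨Sc_conj h1, Nn_conj.1 h2⟩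
  · intro g _ g' _ h
    have h1 : z * g * z⁻¹ = z * g' * z⁻¹ := h
    exact mul_left_cancel (mul_right_cancel h1)

theorem Bc_conj (x z : Gz F m) (c : ℕ) : (Bc (z * x * z⁻¹) c).ncard = (Bc x c).ncard := by
  apply le_antisymm
  · have h := Bc_conj_le (z * x * z⁻¹) z⁻¹ c
    have e : z⁻¹ * (z * x * z⁻¹) * z⁻¹⁻¹ = x := by group
    rwa [e] at h
  · exact Bc_conj_le x z c

theorem Bc_inv (x : Gz F m) (c : ℕ) : Bc x⁻¹ c = Bc x c := by
  ext g
  constructor
  · rintro ⟨h1, h2⟩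
    refine ⟨h1, ?_⟩
    have := inv_mem h2
    rwa [inv_inv] at this
  · rintro ⟨h1, h2⟩
    exact ⟨h1, inv_mem h2⟩

/-- `X2` is a class -/
theorem X2_conj {x : Gz F m} (hx : x ∈ X2 F m) : ∃ z, x = z * u m 0 1 * z⁻¹ := by
  obtain ⟨-, y, hy⟩ := invol_cc hx.1 hx.2
  have h2 : (y * x * y⁻¹) * (y * x * y⁻¹) = 1 := by
    calc (y * x * y⁻¹) * (y * x * y⁻¹) = y * (x * x) * y⁻¹ := by group
      _ = 1 := by rw [hx.2]; group
  obtain ⟨b, hb⟩ := sq_QQ_ZQ hy h2
  have hb0 : b ≠ 0 := by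
    rintro rfl
    rw [u_zero] at hb
    apply hx.1
    calc x = y⁻¹ * (y * x * y⁻¹) * y := by group
      _ = 1 := by rw [hb]; group
  obtain ⟨j, hj⟩ := orbit_Z (m := m) (one_ne_zero : (1 : F) ≠ 0) hb0
  refine ⟨y⁻¹ * hh m j, ?_⟩
  have h3 := conj_hu (m := m) j 0 1
  rw [mul_zero, hj] at h3
  calc x = y⁻¹ * (y * x * y⁻¹) * y := by group
    _ = y⁻¹ * (hh m j * u m 0 1 * (hh m j)⁻¹) * y := by rw [hb, h3]
    _ = _ := by group

variable (F m) in
include hF hm in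
theorem trace_cover (b : F) : (∃ c : F, b = sg F m c + c) ∨ ∃ c : F, b = sg F m c + c + 1 := by
  let f : F →+ F := ((sg F m : F →+* F) : F →+ F) + AddMonoidHom.id F
  have hf : ∀ c, f c = sg F m c + c := fun c => rfl
  have hker : Nat.card f.ker = 2 := by
    have h1 : (f.ker : Set F) = {0, 1} := by
      ext c
      constructor
      · intro h
        have h2 : sg F m c + c = 0 := h
        have h3 : sg F m c = c := CharTwo.add_eq_zero.1 h2
        have h4 : sg F m (sg F m c) = sg F m c := congrArg _ h3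
        rw [sg_sg, h3] at h4
        have h5 : c * (c - 1) = 0 := by linear_combination h4
        rcases mul_eq_zero.1 h5 with h6 | h6
        · exact Or.inl h6
        · exact Or.inr (sub_eq_zero.1 h6)
      · rintro (h | h)
        · rw [h]; exact map_zero f
        · have h' : c = 1 := h
          rw [h']
          change sg F m 1 + 1 = 0
          rw [map_one]; exact two0 1
    have h2 : Nat.card f.ker = (f.ker : Set F).ncard := rfl
    rw [h2, h1, Set.ncard_pair zero_ne_one]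
  have hrange : Nat.card f.range * 2 = Nat.card F := by
    have h1 := AddSubgroup.card_mul_index f.ker
    rw [AddSubgroup.index_ker, hker] at h1
    rw [mul_comm]; exact h1
  have hdis : Disjoint (f.range : Set F) ((fun x => x + 1) '' (f.range : Set F)) := by
    rw [Set.disjoint_left]
    rintro _ ⟨c, rfl⟩ ⟨_, ⟨d, rfl⟩, h⟩
    change f d + 1 = f c at h
    have h1 : f (c - d) = 1 := by rw [map_sub, ← h]; ring
    rw [hf] at h1
    apply sg_add_one (m := m) (c - d)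
    rw [← h1]
    have := two0 (c - d)
    linear_combination -this
  have hun : (f.range : Set F) ∪ ((fun x => x + 1) '' (f.range : Set F)) = Set.univ := by
    have h2 : (f.range : Set F).ncard = Nat.card f.range := rfl
    apply Set.eq_of_subset_of_ncard_le (Set.subset_univ _)
    rw [Set.ncard_union_eq hdis, Set.ncard_image_of_injective _ (add_left_injective (1 : F)), h2, Set.ncard_univ,
      ← hrange]
    omega
  have h1 : b ∈ (f.range : Set F) ∪ ((fun x => x + 1) '' (f.range : Set F)) := by rw [hun]; trivial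
  rcases h1 with ⟨c, hc⟩ | ⟨_, ⟨c, rfl⟩, hc⟩
  · exact Or.inl ⟨c, by rw [← hc, hf]⟩
  · exact Or.inr ⟨c, by rw [← hc, hf]⟩

theorem X4_conj {x : Gz F m} (hx : x ∈ X4 F m) : (∃ z, x = z * u m 1 0 * z⁻¹) ∨ ∃ z, x = z * (u m 1 0)⁻¹ * z⁻¹ := by
  obtain ⟨⟨hx1, y, hy⟩, hxx⟩ := hx
  obtain ⟨a, b, hab⟩ := hy
  have ha : a ≠ 0 := by
    rintro rfl
    apply hxx
    calc x * x = y⁻¹ * ((y * x * y⁻¹) * (y * x * y⁻¹)) * y := by group
      _ = 1 := by rw [hab, u_sq, map_zero, mul_zero, u_zero]; group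
  obtain ⟨i, hi⟩ := sg_surj (F := F) (m := m) a
  have hi0 : i ≠ 0 := by
    rintro rfl
    rw [map_zero] at hi
    exact ha hi.symm
  -- `u a b = h (u 1 b') h⁻¹`
  obtain ⟨b', hb'⟩ : ∃ b', u m a b = hh m (Units.mk0 i hi0) * u m 1 b' * (hh m (Units.mk0 i hi0))⁻¹ := by
    refine ⟨b / (a * i ^ 2), ?_⟩
    rw [conj_hu, Units.val_mk0, hi, mul_one]
    congr 1
    field_simp
  have key : ∀ c b₀ : F, u m c 0 * u m 1 b₀ * (u m c 0)⁻¹ = u m 1 (b₀ + (sg F m c + c)) := by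
    intro c b₀
    rw [mul_inv_eq_iff_eq_mul, u_mul, u_mul, map_one]
    congr 1
    · ring
    · have := two0 c
      linear_combination -this
  have hinv : (u m (1 : F) 0)⁻¹ = u m 1 1 := by
    rw [u_inv, map_one, mul_one, zero_add]
  have hx' : x = y⁻¹ * u m a b * y := by rw [← hab]; group
  rcases trace_cover F m b' with ⟨c, hc⟩ | ⟨c, hc⟩
  · left
    refine ⟨y⁻¹ * hh m (Units.mk0 i hi0) * u m c 0, ?_⟩
    have h1 := key c 0
    rw [zero_add, ← hc] at h1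
    rw [hx', hb', ← h1]; group
  · right
    refine ⟨y⁻¹ * hh m (Units.mk0 i hi0) * u m c 0, ?_⟩
    have h1 := key c 1
    rw [add_comm (1 : F), ← hc] at h1
    rw [hinv, hx', hb', ← h1]; group

theorem ZQ_cc : (cc (ZQ F m)).ncard = (Nat.card F ^ 2 + 1) * (Nat.card F - 1) := by
  have hn : normalizer (ZQ F m : Set (Gz F m)) = BB F m := by
    ext x
    rw [mem_nrm]
    constructor
    · intro h
      have h1 := (h (u m 0 1)).1 ⟨1, rfl⟩
      exact conj_u_inj one_ne_zero (QQ_le_BB (ZQ_le_QQ h1))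
    · intro h t
      refine ⟨fun ht => ZQ_conj_BB h ht, fun ht => ?_⟩
      have h1 := ZQ_conj_BB (inv_mem h) ht
      have h2 : x⁻¹ * (x * t * x⁻¹) * x⁻¹⁻¹ = t := by group
      rwa [h2] at h1
  rw [card_cc (ZQ F m), hn, index_BB, card_ZQ]
  intro x t ht ht1 hx
  rw [hn]
  exact QQ_ti _ _ (ZQ_le_QQ ht) ht1 (ZQ_le_QQ hx)

theorem X2_eq : X2 F m = cc (ZQ F m) := by
  ext x
  constructor
  · rintro ⟨h1, h2⟩
    refine ⟨h1, ?_⟩
    obtain ⟨-, y, hy⟩ := invol_cc h1 h2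
    refine ⟨y, sq_QQ_ZQ hy ?_⟩
    calc (y * x * y⁻¹) * (y * x * y⁻¹) = y * (x * x) * y⁻¹ := by group
      _ = 1 := by rw [h2]; group
  · rintro ⟨h1, y, b, hb⟩
    refine ⟨h1, ?_⟩
    calc x * x = y⁻¹ * ((y * x * y⁻¹) * (y * x * y⁻¹)) * y := by group
      _ = 1 := by rw [hb, u_sq, map_zero, mul_zero, u_zero]; group

theorem card_X2 : (X2 F m).ncard = (Nat.card F ^ 2 + 1) * (Nat.card F - 1) := by rw [X2_eq, ZQ_cc]

theorem card_X4 : (X4 F m).ncard = (Nat.card F ^ 2 + 1) * (Nat.card F * (Nat.card F - 1)) := by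
  have h1 : cc (QQ F m) = X4 F m ∪ X2 F m := by
    ext z
    constructor
    · intro h
      by_cases hzz : z * z = 1
      · exact Or.inr ⟨h.1, hzz⟩
      · exact Or.inl ⟨h, hzz⟩
    · rintro (h | h)
      · exact h.1
      · exact invol_cc h.1 h.2
  have hd : Disjoint (X4 F m) (X2 F m) := by
    rw [Set.disjoint_left]
    rintro z h1 h2
    exact h1.2 h2.2
  have h2 := cc_QQ (F := F) (m := m)
  rw [h1, Set.ncard_union_eq hd, card_X2] at h2
  have h8 := card_F_ge (F := F) (m := m)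
  obtain ⟨s, hs⟩ : ∃ s, Nat.card F = s + 1 := ⟨Nat.card F - 1, by omega⟩
  rw [hs, Nat.add_sub_cancel] at h2 ⊢
  have h3 : (s + 1) ^ 2 - 1 = (s + 1) * s + s := by
    have : (s + 1) ^ 2 = (s + 1) * s + s + 1 := by ring
    omega
  rw [h3, mul_add] at h2
  omega

/-- involutions -/
theorem count2 {x : Gz F m} (hx : x ∈ QQ F m) (hx2 : x ∈ X2 F m) {g : Gz F m} (hg : g ≠ 1) (ho : Odd (orderOf g))
    {n c : ℕ} (hn : n = 2 ∨ n = 4) (hc : Nat.card (centralizer {g}) = c)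
    (hN : ∀ g ∈ Sc F m c, Nat.card (Nn g) = n * c) : (Ac x c).ncard = Nat.card F ^ 2 * (c - 1) := by
  have hc5 : 5 ≤ c := by rw [← hc]; exact Cm.five_le oddCent_G ⟨g, hg, ho, rfl⟩
  have h1 := dc1 hx hx2.1 (by omega) hn hN
  have h2 : (X2 F m).ncard * (Bc x c).ncard = (Sc F m c).ncard * c := by
    apply double_count (X2 F m) (Sc F m c) (fun y g => y ∈ Nn g)
    · intro y hy
      obtain ⟨z, hz⟩ := X2_conj hy
      obtain ⟨w, hw⟩ := X2_conj hx2
      change (Bc y c).ncard = _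
      rw [hz, hw, Bc_conj, Bc_conj]
    · rintro b ⟨hb1, hbo, hbc⟩
      rw [← hbc, ← invol_count hb1 hbo]
      congr 1
      ext z
      exact ⟨fun h => ⟨h.2, h.1⟩, fun h => ⟨h.2, h.1⟩⟩
  have h3 := Sc_card hg ho (n := n) (by rw [hN g ⟨hg, ho, hc⟩, hc])
  rw [hc] at h3
  have h4 : (X2 F m).ncard * (Ac x c).ncard = (X2 F m).ncard * (Nat.card F ^ 2 * (c - 1)) := by
    calc (X2 F m).ncard * (Ac x c).ncard = n * ((X2 F m).ncard * (Bc x c).ncard) := by rw [h1]; ring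
      _ = n * c * (Sc F m c).ncard := by rw [h2]; ring
      _ = _ := by rw [h3, card_Gz, card_X2]; ring
  have h8 := card_F_ge (F := F) (m := m)
  exact Nat.eq_of_mul_eq_mul_left (by rw [card_X2]; exact Nat.mul_pos (by omega) (by omega)) h4

/-- elements of order four -/
theorem count4 {x : Gz F m} (hx : x ∈ QQ F m) (hx4 : x ∈ X4 F m) {g : Gz F m} (hg : g ≠ 1) (ho : Odd (orderOf g))
    {n c : ℕ} (hn : n = 2 ∨ n = 4) (hc : Nat.card (centralizer {g}) = c)
    (hN : ∀ g ∈ Sc F m c, Nat.card (Nn g) = n * c) : (Ac x c).ncard = (n - 2) * (Nat.card F * (c - 1)) := by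
  have hc5 : 5 ≤ c := by rw [← hc]; exact Cm.five_le oddCent_G ⟨g, hg, ho, rfl⟩
  have h1 := dc1 hx hx4.1.1 (by omega) hn hN
  have hB : ∀ {y : Gz F m}, y ∈ X4 F m → (Bc y c).ncard = (Bc (u m (1 : F) 0) c).ncard := by
    intro y hy
    rcases X4_conj hy with ⟨z, hz⟩ | ⟨z, hz⟩
    · rw [hz, Bc_conj]
    · rw [hz, Bc_conj, Bc_inv]
  have h2 : (X4 F m).ncard * (Bc x c).ncard = (Sc F m c).ncard * ((n - 2) * c) := by
    apply double_count (X4 F m) (Sc F m c) (fun y g => y ∈ Nn g)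
    · intro y hy
      change (Bc y c).ncard = _
      rw [hB hy, hB hx4]
    · rintro b ⟨hb1, hbo, hbc⟩
      have h5 := X4_count hb1 hbo (n := n) (by rw [hbc]; exact hN b ⟨hb1, hbo, hbc⟩)
      have h6 : {a | a ∈ X4 F m ∧ a ∈ Nn b} = {z : Gz F m | z ∈ Nn b ∧ z ∈ X4 F m} := by
        ext z
        exact ⟨fun h => ⟨h.2, h.1⟩, fun h => ⟨h.2, h.1⟩⟩
      rw [h6, Nat.sub_mul, ← hbc]
      omega
  have h3 := Sc_card hg ho (n := n) (by rw [hN g ⟨hg, ho, hc⟩, hc])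
  rw [hc] at h3
  have h8 := card_F_ge (F := F) (m := m)
  have h4 : (X4 F m).ncard * (Ac x c).ncard = (X4 F m).ncard * ((n - 2) * (Nat.card F * (c - 1))) := by
    calc (X4 F m).ncard * (Ac x c).ncard = n * ((X4 F m).ncard * (Bc x c).ncard) := by rw [h1]; ring
      _ = (n - 2) * (n * c * (Sc F m c).ncard) := by rw [h2]; ring
      _ = _ := by rw [h3, card_Gz, card_X4]; ring
  exact Nat.eq_of_mul_eq_mul_left (by
    rw [card_X4]; exact Nat.mul_pos (by omega) (Nat.mul_pos (by omega) (by omega))) h4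

end CfsgL.Sz
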