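import Cfsg.Agent.L.Sz.Sol2

/-! Solubilizers in the Suzuki groups. -/

set_option autoImplicit false
set_option maxHeartbeats 400000

namespace CfsgL.Sz

open Subgroup CfsgL.Odd

variable {F : Type*} [Field F] [Fintype F] {m : ℕ} [CharP F 2] [hF : Fact (Fintype.card F = 2 ^ (2 * m + 1))]
variable [hm : Fact (1 ≤ m)]

theorem solv_le {G : Type*} [Group G] {H K : Subgroup G} (h : H ≤ K) (hK : Group.IsSolvable K) : Group.IsSolvable H :=
  solvable_of_solvable_injective (inclusion_injective h)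

theorem solv_BB : Group.IsSolvable (BB F m) := by
  haveI : Fact (Nat.Prime 2) := ⟨Nat.prime_two⟩
  haveI h1 : Group.IsNilpotent (QQ F m) := isPGroup_QQ.isNilpotent
  haveI h2 : Group.IsSolvable (QQ F m) := inferInstance
  refine solvable_of_ker_le_range (inclusion (QQ_le_BB (F := F) (m := m))) (prB (F := F) (m := m)) ?_
  intro g hg
  rw [MonoidHom.mem_ker] at hg
  obtain ⟨a, b, hab⟩ := prB_spec g
  rw [hg, hh_one, mul_one] at hab
  exact ⟨⟨g, ⟨a, b, hab⟩⟩, rfl⟩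

theorem solv_cj {G : Type*} [Group G] {H : Subgroup G} {x : G} : Group.IsSolvable (cj x H) ↔ Group.IsSolvable H := by
  have e : H ≃* cj x H := H.equivMapOfInjective _ (MulAut.conj x).injective
  exact ⟨fun h => solvable_of_solvable_injective (f := e.toMonoidHom) e.injective,
    fun h => solvable_of_solvable_injective (f := e.symm.toMonoidHom) e.symm.injective⟩

theorem solv_stab (p : Om F m) : Group.IsSolvable (MulAction.stabilizer (Gz F m) p) := by
  obtain ⟨g, hg⟩ := exists_to_inf p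
  rw [← solv_cj (x := g)]
  refine solv_le ?_ solv_BB
  intro y hy
  rw [mem_cj, MulAction.mem_stabilizer_iff, mul_smul, mul_smul, inv_smul_eq_iff] at hy
  rw [mem_BB, ← hg]; exact hy

theorem solv_Nn {g : Gz F m} (hg : g ≠ 1) (ho : Odd (orderOf g)) : Group.IsSolvable (Nn g) := by
  haveI : Fact (Nat.Prime 2) := ⟨Nat.prime_two⟩
  obtain ⟨n, hn, hN⟩ := Nn_card' hg ho
  haveI := normal_Nn g
  haveI h1 : Group.IsSolvable (centralizer {g}) := by
    haveI := (cent_odd hg ho).1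
    letI : CommGroup (centralizer {g}) := IsCyclic.commGroup
    infer_instance
  have h2 : IsPGroup 2 (Nn g ⧸ (centralizer {g}).subgroupOf (Nn g)) := by
    have h3 : Nat.card (Nn g ⧸ (centralizer {g}).subgroupOf (Nn g)) = n := relIndex_Nn hN
    rw [IsPGroup.iff_card, h3]
    rcases hn with rfl | rfl
    · exact ⟨1, rfl⟩
    · exact ⟨2, rfl⟩
  haveI h3 : Group.IsNilpotent (Nn g ⧸ (centralizer {g}).subgroupOf (Nn g)) := h2.isNilpotent
  haveI h4 : Group.IsSolvable (Nn g ⧸ (centralizer {g}).subgroupOf (Nn g)) := inferInstance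
  refine solvable_of_ker_le_range (inclusion (cent_le_Nn g)) (QuotientGroup.mk' ((centralizer {g}).subgroupOf (Nn g))) ?_
  rw [QuotientGroup.ker_mk']
  rintro ⟨y, hy⟩ hyC
  exact ⟨⟨y, hyC⟩, rfl⟩

theorem not_solv : ¬ Group.IsSolvable (Gz F m) := by
  intro h
  haveI : IsSimpleGroup (Gz F m) := isSimple
  have h1 := IsSimpleGroup.comm_iff_isSolvable.2 h
  have h2 : commutator (Gz F m) = ⊥ := by
    rw [_root_.commutator_def, commutator_eq_bot_iff_le_centralizer]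
    intro x _
    rw [mem_centralizer_iff]
    intro y _
    exact h1 y x
  rw [comm_top] at h2
  have h3 : Nat.card (⊤ : Subgroup (Gz F m)) = Nat.card (⊥ : Subgroup (Gz F m)) := by rw [h2]
  rw [card_top, card_bot] at h3
  have := card_Gz_big (K := F) (k := m)
  omega

theorem solv_iff (hp : (2 * m + 1).Prime) (x y : Gz F m) :
    Group.IsSolvable (closure ({x, y} : Set (Gz F m))) ↔
      (∃ p : Om F m, x • p = p ∧ y • p = p) ∨
      ∃ g : Gz F m, g ≠ 1 ∧ Odd (orderOf g) ∧ x ∈ Nn g ∧ y ∈ Nn g := by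
  constructor
  · intro h
    have hx : x ∈ closure ({x, y} : Set (Gz F m)) := subset_closure (by simp)
    have hy : y ∈ closure ({x, y} : Set (Gz F m)) := subset_closure (by simp)
    rcases sub_main (closure ({x, y} : Set (Gz F m))) with ⟨z, hz⟩ | ⟨g, hg, hgo, hM2⟩ | ⟨k, z, hst⟩
    · left
      have key : ∀ {w : Gz F m}, w ∈ closure ({x, y} : Set (Gz F m)) → w • (z⁻¹ • pinf F m) = z⁻¹ • pinf F m := by
        intro w hw
        have h1 := mem_BB.1 (hz (conj_mem_cj (x := z) hw))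
        rw [mul_smul, mul_smul] at h1
        rw [eq_inv_smul_iff]; exact h1
      exact ⟨_, key hx, key hy⟩
    · right
      exact ⟨g, hg, hgo, hM2 hx, hM2 hy⟩
    · exfalso
      rcases std_top hst with h1 | h1
      · have h2 := hst.2.1
        have h3 := hst.1
        rcases (Nat.dvd_prime hp).1 h2 with h4 | h4 <;> omega
      · rw [h1] at h
        exact not_solv (solvable_of_surjective (f := (⊤ : Subgroup (Gz F m)).subtype) (fun w => ⟨⟨w, trivial⟩, rfl⟩))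
  · rintro (⟨p, h1, h2⟩ | ⟨g, hg, hgo, h1, h2⟩)
    · refine solv_le ?_ (solv_stab p)
      rw [closure_le]
      rintro w (rfl | hw)
      · exact h1
      · rw [Set.mem_singleton_iff] at hw
        rw [hw]; exact h2
    · refine solv_le ?_ (solv_Nn hg hgo)
      rw [closure_le]
      rintro w (rfl | hw)
      · exact h1
      · rw [Set.mem_singleton_iff] at hw
        rw [hw]; exact h2

/-- the solubilizer -/
def Sol {G : Type*} [Group G] (x : G) : Set G := {y | Group.IsSolvable (closure ({x, y} : Set G))}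

theorem sol_equiv {G H : Type*} [Group G] [Group H] (e : G ≃* H) (x : G) : (Sol (e x)).ncard = (Sol x).ncard := by
  have key : ∀ y : G, Group.IsSolvable (closure ({e x, e y} : Set H)) ↔ Group.IsSolvable (closure ({x, y} : Set G)) := by
    intro y
    have h1 : closure ({e x, e y} : Set H) = (closure ({x, y} : Set G)).map e.toMonoidHom := by
      rw [MonoidHom.map_closure, Set.image_pair]; rfl
    have e1 : closure ({x, y} : Set G) ≃* (closure ({x, y} : Set G)).map e.toMonoidHom :=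
      (closure ({x, y} : Set G)).equivMapOfInjective _ e.injective
    rw [h1]
    exact ⟨fun h => solvable_of_solvable_injective (f := e1.toMonoidHom) e1.injective,
      fun h => solvable_of_solvable_injective (f := e1.symm.toMonoidHom) e1.symm.injective⟩
  have h2 : Sol (e x) = e '' (Sol x) := by
    ext y
    constructor
    · intro h
      refine ⟨e.symm y, ?_, e.apply_symm_apply y⟩
      change Group.IsSolvable _
      rw [← key, e.apply_symm_apply]
      exact h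
    · rintro ⟨w, hw, rfl⟩
      exact (key w).2 hw
  rw [h2, Set.ncard_image_of_injective _ e.injective]

variable (F m) in
include m hF hm in
theorem tor_num {c : ℕ} (hc : c ∣ Nat.card F ^ 2 + 1) (hc1 : c ≠ 1) : c ≠ Nat.card F - 1 := by
  rintro rfl
  have h8 := card_F_ge (F := F) (m := m)
  have h1 := coprime_aux (card_F_even (F := F) (m := m)) (by omega)
  exact hc1 (Nat.eq_one_of_dvd_coprimes h1 dvd_rfl hc)

variable (F m) in
include hm hF in
theorem data : ∃ (t₁ t₂ : ℕ) (g₀ g₁ g₂ : Gz F m), t₁ = Nat.card F + 2 ^ (m + 1) + 1 ∧ t₂ + 2 ^ (m + 1) = Nat.card F + 1 ∧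
    t₁ ≠ t₂ ∧ t₁ ≠ Nat.card F - 1 ∧ t₂ ≠ Nat.card F - 1 ∧ 5 ≤ t₁ ∧ 5 ≤ t₂ ∧ Nat.Coprime t₁ t₂ ∧ t₁ * t₂ = Nat.card F ^ 2 + 1 ∧
    (g₀ ≠ 1 ∧ Odd (orderOf g₀) ∧ Nat.card (centralizer {g₀}) = Nat.card F - 1) ∧
    (g₁ ≠ 1 ∧ Odd (orderOf g₁) ∧ Nat.card (centralizer {g₁}) = t₁) ∧
    (g₂ ≠ 1 ∧ Odd (orderOf g₂) ∧ Nat.card (centralizer {g₂}) = t₂) ∧
    (∀ g ∈ Sc F m (Nat.card F - 1), Nat.card (Nn g) = 2 * (Nat.card F - 1)) ∧
    (∀ g ∈ Sc F m t₁, Nat.card (Nn g) = 4 * t₁) ∧ (∀ g ∈ Sc F m t₂, Nat.card (Nn g) = 4 * t₂) := by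
  obtain ⟨T₁, T₂, h₁, h₂, c₁, c₂, n₁, n₂, hp, hc, hall⟩ := tori_exist (F := F) (m := m)
  obtain ⟨g₁, hf₁, hT₁⟩ := h₁
  obtain ⟨g₂, hf₂, hT₂⟩ := h₂
  have h₁ : Tor T₁ := ⟨g₁, hf₁, hT₁⟩
  have h₂ : Tor T₂ := ⟨g₂, hf₂, hT₂⟩
  obtain ⟨j, hj⟩ := exists_j (F := F) (m := m)
  have o₁ := h₁.five_le
  have o₂ := h₂.five_le
  have hodd : ∀ {g : Gz F m}, Fpf g → Odd (orderOf g) := fun hf =>
    odd_of_dvd (card_F_even (F := F) (m := m)) hf.order_dvd
  have d₁ := tor_num F m h₁.dvd (by omega)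
  have d₂ := tor_num F m h₂.dvd (by omega)
  have key : ∀ {t : ℕ}, t ≠ Nat.card F - 1 → ∀ g ∈ Sc F m t, Nat.card (Nn g) = 4 * t := by
    rintro t ht g ⟨hg, hgo, hgc⟩
    rcases Nn_card hg hgo with ⟨-, h⟩ | ⟨h, -⟩
    · rw [hgc] at h; exact absurd h ht
    · rw [h, hgc]
  refine ⟨Nat.card T₁, Nat.card T₂, hh m j, g₁, g₂, c₁, c₂, ?_, d₁, d₂, o₁, o₂, hc, hp,
    ⟨hh_ne_one hj, by rw [orderOf_hh]; exact orderOf_unit_odd m j, by rw [cent_hh hj, card_KK]⟩,
    ⟨hf₁.ne_one, hodd hf₁, by rw [hT₁]⟩, ⟨hf₂.ne_one, hodd hf₂, by rw [hT₂]⟩, ?_, key d₁, key d₂⟩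
  · have : 1 ≤ 2 ^ (m + 1) := Nat.one_le_two_pow
    omega
  · rintro g ⟨hg, hgo, hgc⟩
    rcases Nn_card hg hgo with ⟨h, -⟩ | ⟨-, h⟩
    · rw [h, hgc]
    · exfalso
      have h3 : Tor (centralizer {g}) := ⟨g, h, rfl⟩
      have h4 := h3.five_le
      exact tor_num F m h3.dvd (by omega) hgc

theorem Ac_disj {x : Gz F m} (hx : x ∈ QQ F m) (hx1 : x ≠ 1) {c c' : ℕ} (h : c ≠ c') : Disjoint (Ac x c) (Ac x c') := by
  rw [Set.disjoint_left]
  rintro y ⟨hy, g, ⟨hg1, hgo, hgc⟩, hxg, hyg⟩ ⟨-, g', ⟨hg1', hgo', hgc'⟩, hxg', hyg'⟩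
  apply h
  rw [← hgc, ← hgc', uniq hx hx1 hy hg1 hgo hg1' hgo' hxg hyg hxg' hyg']

theorem sol_QQ (hp : (2 * m + 1).Prime) {x : Gz F m} (hx : x ∈ QQ F m) (hx1 : x ≠ 1) {t₁ t₂ : ℕ}
    (e₁ : t₁ = Nat.card F + 2 ^ (m + 1) + 1) (e₂ : t₂ + 2 ^ (m + 1) = Nat.card F + 1) (h12 : t₁ ≠ t₂)
    (d₁ : t₁ ≠ Nat.card F - 1) (d₂ : t₂ ≠ Nat.card F - 1) :
    (Sol x).ncard = Nat.card (BB F m) + ((Ac x (Nat.card F - 1)).ncard + ((Ac x t₁).ncard + (Ac x t₂).ncard)) := by
  have h1 : Sol x = ((BB F m : Subgroup (Gz F m)) : Set (Gz F m)) ∪ (Ac x (Nat.card F - 1) ∪ (Ac x t₁ ∪ Ac x t₂)) := by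
    ext y
    change Group.IsSolvable _ ↔ _
    rw [solv_iff hp]
    constructor
    · rintro (⟨p, h1, h2⟩ | ⟨g, hg, hgo, h1, h2⟩)
      · left
        obtain ⟨a, b, rfl⟩ := hx
        have h3 := u_conj_fix hx1 h1
        rw [h3] at h2
        exact mem_BB.2 h2
      · by_cases hy : y ∈ BB F m
        · exact Or.inl hy
        · right
          rcases cent_tri hg with ⟨z, hz⟩ | ⟨-, hcard⟩
          · exact absurd hz (odd_not_QQ hg hgo)
          · rcases hcard with h | ⟨-, h | h⟩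
            · exact Or.inl ⟨hy, g, ⟨hg, hgo, h⟩, h1, h2⟩
            · exact Or.inr (Or.inl ⟨hy, g, ⟨hg, hgo, by rw [h, e₁]⟩, h1, h2⟩)
            · exact Or.inr (Or.inr ⟨hy, g, ⟨hg, hgo, by omega⟩, h1, h2⟩)
    · rintro (hy | ⟨hy, g, ⟨hg, hgo, hgc⟩, h1, h2⟩ | ⟨hy, g, ⟨hg, hgo, hgc⟩, h1, h2⟩ | ⟨hy, g, ⟨hg, hgo, hgc⟩, h1, h2⟩)
      · exact Or.inl ⟨pinf F m, mem_BB.1 (QQ_le_BB hx), mem_BB.1 hy⟩
      all_goals exact Or.inr ⟨g, hg, hgo, h1, h2⟩
  have hBA : ∀ c, Disjoint ((BB F m : Subgroup (Gz F m)) : Set (Gz F m)) (Ac x c) := by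
    intro c
    rw [Set.disjoint_left]
    intro y hy h
    exact h.1 hy
  rw [h1, Set.ncard_union_eq, Set.ncard_union_eq, Set.ncard_union_eq (Ac_disj hx hx1 h12)]
  · rfl
  · rw [Set.disjoint_union_right]
    exact ⟨Ac_disj hx hx1 d₁.symm, Ac_disj hx hx1 d₂.symm⟩
  · rw [Set.disjoint_union_right, Set.disjoint_union_right]
    exact ⟨hBA _, hBA _, hBA _⟩

theorem sol_conj (z x : Gz F m) : (Sol (z * x * z⁻¹)).ncard = (Sol x).ncard := sol_equiv (MulAut.conj z) x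

theorem sol_two (hp : (2 * m + 1).Prime) {x : Gz F m} (hx : x ∈ X2 F m) :
    (Sol x).ncard = Nat.card F ^ 2 * (4 * Nat.card F - 3) := by
  obtain ⟨-, z, hz⟩ := invol_cc hx.1 hx.2
  rw [← sol_conj z]
  obtain ⟨y, hy⟩ : ∃ y, y = z * x * z⁻¹ := ⟨_, rfl⟩
  rw [← hy] at hz ⊢
  have hy2 : y ∈ X2 F m := by
    constructor
    · intro h
      apply hx.1
      calc x = z⁻¹ * (z * x * z⁻¹) * z := by group
        _ = 1 := by rw [← hy, h]; group
    · calc y * y = z * (x * x) * z⁻¹ := by rw [hy]; group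
        _ = 1 := by rw [hx.2]; group
  obtain ⟨t₁, t₂, g₀, g₁, g₂, e₁, e₂, h12, d₁, d₂, o₁, o₂, -, -, ⟨a1, a2, a3⟩, ⟨b1, b2, b3⟩, ⟨c1, c2, c3⟩, n0, n1, n2⟩ := data F m
  rw [sol_QQ hp hz hy2.1 e₁ e₂ h12 d₁ d₂, card_BB, count2 hz hy2 a1 a2 (Or.inl rfl) a3 n0,
    count2 hz hy2 b1 b2 (Or.inr rfl) b3 n1, count2 hz hy2 c1 c2 (Or.inr rfl) c3 n2]
  have h8 := card_F_ge (F := F) (m := m)
  rw [← mul_add, ← mul_add, ← mul_add]
  congr 1
  omega

theorem sol_four (hp : (2 * m + 1).Prime) {x : Gz F m} (hx : x ∈ X4 F m) :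
    (Sol x).ncard = Nat.card F ^ 2 * (Nat.card F + 3) := by
  obtain ⟨⟨hx1, z, hz⟩, hxx⟩ := hx
  rw [← sol_conj z]
  obtain ⟨y, hy⟩ : ∃ y, y = z * x * z⁻¹ := ⟨_, rfl⟩
  rw [← hy] at hz ⊢
  have hy4 : y ∈ X4 F m := by
    refine ⟨⟨?_, 1, by rw [one_mul, inv_one, mul_one]; exact hz⟩, ?_⟩
    · intro h
      apply hx1
      calc x = z⁻¹ * (z * x * z⁻¹) * z := by group
        _ = 1 := by rw [← hy, h]; group
    · intro h
      apply hxx
      calc x * x = z⁻¹ * (y * y) * z := by rw [hy]; group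
        _ = 1 := by rw [h]; group
  obtain ⟨t₁, t₂, g₀, g₁, g₂, e₁, e₂, h12, d₁, d₂, o₁, o₂, -, -, ⟨a1, a2, a3⟩, ⟨b1, b2, b3⟩, ⟨c1, c2, c3⟩, n0, n1, n2⟩ := data F m
  rw [sol_QQ hp hz hy4.1.1 e₁ e₂ h12 d₁ d₂, card_BB, count4 hz hy4 a1 a2 (Or.inl rfl) a3 n0,
    count4 hz hy4 b1 b2 (Or.inr rfl) b3 n1, count4 hz hy4 c1 c2 (Or.inr rfl) c3 n2]
  have h8 := card_F_ge (F := F) (m := m)
  have h9 : (t₁ - 1) + (t₂ - 1) = 2 * Nat.card F := by omega
  have h10 : (4 - 2) * (Nat.card F * (t₁ - 1)) + (4 - 2) * (Nat.card F * (t₂ - 1)) = Nat.card F ^ 2 * 4 := by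
    calc (4 - 2) * (Nat.card F * (t₁ - 1)) + (4 - 2) * (Nat.card F * (t₂ - 1)) =
        2 * (Nat.card F * ((t₁ - 1) + (t₂ - 1))) := by ring
      _ = _ := by rw [h9]; ring
  rw [h10, Nat.sub_self, zero_mul, zero_add, ← mul_add]
  congr 1
  omega

theorem sol_tor (hp : (2 * m + 1).Prime) {x : Gz F m} (hx : Fpf x) : (Sol x).ncard = 4 * Nat.card (centralizer {x}) := by
  have hx1 := hx.ne_one
  have hxo : Odd (orderOf x) := odd_of_dvd (card_F_even (F := F) (m := m)) hx.order_dvd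
  have h1 : Sol x = ((Nn x : Subgroup (Gz F m)) : Set (Gz F m)) := by
    ext y
    change Group.IsSolvable _ ↔ _
    rw [solv_iff hp]
    constructor
    · rintro (⟨p, h1, h2⟩ | ⟨g, hg, hgo, h1, h2⟩)
      · exact absurd h1 (hx p)
      · have h3 := cent_eq_of_odd hg hgo (odd_mem_cent hg hgo h1 hxo) hx1
        change y ∈ Nn x
        rw [Nn, h3]; exact h2
    · intro hy
      exact Or.inr ⟨x, hx1, hxo, cent_le_Nn x (self_cent x), hy⟩
  have h2 : ((Nn x : Subgroup (Gz F m)) : Set (Gz F m)).ncard = Nat.card (Nn x) := rfl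
  rw [h1, h2]
  exact norm_fpf hx

theorem sol_hh (hp : (2 * m + 1).Prime) {j : Fˣ} (hj : j ≠ 1) :
    (Sol (hh m j)).ncard = 2 * Nat.card F ^ 2 * (Nat.card F - 1) := by
  obtain ⟨N, hN⟩ : ∃ N : Subgroup (Gz F m), N = normalizer (KK F m : Set (Gz F m)) := ⟨_, rfl⟩
  obtain ⟨S0, hS0⟩ : ∃ S0 : Subgroup (Gz F m), S0 = MulAction.stabilizer (Gz F m) (pzero F m) := ⟨_, rfl⟩
  have hho : Odd (orderOf (hh m j)) := by rw [orderOf_hh]; exact orderOf_unit_odd m j
  have h1 : Sol (hh m j) = (((BB F m : Subgroup (Gz F m)) : Set (Gz F m)) ∪ (S0 : Set (Gz F m))) ∪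
      ((N : Set (Gz F m)) \ ((KK F m : Subgroup (Gz F m)) : Set (Gz F m))) := by
    ext y
    change Group.IsSolvable _ ↔ _
    rw [solv_iff hp]
    constructor
    · rintro (⟨p, h1, h2⟩ | ⟨g, hg, hgo, h1, h2⟩)
      · left
        rcases hh_fix' hj h1 with rfl | rfl
        · exact Or.inl (mem_BB.2 h2)
        · right; rw [hS0]; exact h2
      · have h3 := cent_eq_of_odd hg hgo (odd_mem_cent hg hgo h1 hho) (hh_ne_one hj)
        rw [cent_hh hj] at h3
        rw [Nn, ← h3] at h2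
        by_cases hy : y ∈ KK F m
        · left; left; exact KK_le_BB hy
        · right
          refine ⟨?_, hy⟩
          rw [hN]; exact h2
    · rintro ((hy | hy) | ⟨hy, -⟩)
      · exact Or.inl ⟨pinf F m, hh_inf j, mem_BB.1 hy⟩
      · rw [hS0] at hy
        exact Or.inl ⟨pzero F m, hh_zero j, hy⟩
      · right
        refine ⟨hh m j, hh_ne_one hj, hho, cent_le_Nn _ (self_cent _), ?_⟩
        rw [Nn, cent_hh hj, ← hN]; exact hy
  have hS0c : Nat.card S0 = Nat.card (BB F m) := by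
    have h2 : S0 = cj (ww F m) (BB F m) := by
      ext y
      rw [hS0, MulAction.mem_stabilizer_iff, mem_cj, mem_BB, mul_smul, mul_smul, ww_inf, inv_smul_eq_iff, ww_inf]
    rw [h2]
    exact (Nat.card_congr ((BB F m).equivMapOfInjective _ (MulAut.conj (ww F m)).injective).toEquiv).symm
  have hint : ((BB F m : Subgroup (Gz F m)) : Set (Gz F m)) ∩ (S0 : Set (Gz F m)) =
      ((KK F m : Subgroup (Gz F m)) : Set (Gz F m)) := by
    ext y
    constructor
    · rintro ⟨h2, h3⟩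
      rw [hS0] at h3
      exact mem_KK.2 (fix_two' (mem_BB.1 h2) h3)
    · intro hy
      refine ⟨KK_le_BB hy, ?_⟩
      obtain ⟨i, rfl⟩ := mem_KK.1 hy
      rw [hS0]; exact hh_zero i
  have hd : Disjoint (((BB F m : Subgroup (Gz F m)) : Set (Gz F m)) ∪ (S0 : Set (Gz F m)))
      ((N : Set (Gz F m)) \ ((KK F m : Subgroup (Gz F m)) : Set (Gz F m))) := by
    rw [Set.disjoint_left]
    rintro y hy ⟨hyN, hyK⟩
    have hyN' : y ∈ normalizer (KK F m : Set (Gz F m)) := by rw [← hN]; exact hyN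
    rcases mem_norm_KK.1 hyN' with ⟨i, hi⟩ | ⟨i, hi⟩
    · exact hyK (mem_KK.2 ⟨i, hi⟩)
    · rcases hy with hy | hy
      · have h2 := mem_BB.1 hy
        rw [hi, mul_smul, ww_inf, hh_zero] at h2
        exact pp_ne_inf _ _ h2
      · rw [hS0] at hy
        have h2 : y • pzero F m = pzero F m := hy
        rw [hi, mul_smul, ww_zero, hh_inf] at h2
        exact pp_ne_inf _ _ h2.symm
  have h2 := Set.ncard_union_add_ncard_inter ((BB F m : Subgroup (Gz F m)) : Set (Gz F m)) (S0 : Set (Gz F m))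
  have c1 : ((BB F m : Subgroup (Gz F m)) : Set (Gz F m)).ncard = Nat.card F ^ 2 * (Nat.card F - 1) := card_BB
  have c2 : (S0 : Set (Gz F m)).ncard = Nat.card F ^ 2 * (Nat.card F - 1) := hS0c.trans card_BB
  have c3 : ((KK F m : Subgroup (Gz F m)) : Set (Gz F m)).ncard = Nat.card F - 1 := card_KK
  have c4 : (N : Set (Gz F m)).ncard = 2 * (Nat.card F - 1) := by rw [hN]; exact card_norm_KK
  have hKN : ((KK F m : Subgroup (Gz F m)) : Set (Gz F m)) ⊆ (N : Set (Gz F m)) := by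
    intro y hy
    change y ∈ N
    rw [hN]; exact le_normalizer hy
  rw [hint, c1, c2, c3] at h2
  rw [h1, Set.ncard_union_eq hd, Set.ncard_sdiff hKN, c3, c4]
  have h3 : 2 * Nat.card F ^ 2 * (Nat.card F - 1) = Nat.card F ^ 2 * (Nat.card F - 1) + Nat.card F ^ 2 * (Nat.card F - 1) := by
    ring
  rw [h3, ← h2]
  omega

/-- the main theorem on solubilizers -/
theorem sol_main (hp : (2 * m + 1).Prime) (x : Gz F m) :
    (orderOf x = 2 → (Sol x).ncard = Nat.card F ^ 2 * (4 * Nat.card F - 3)) ∧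
    (orderOf x = 4 → (Sol x).ncard = Nat.card F ^ 2 * (Nat.card F + 3)) ∧
    (x ≠ 1 → orderOf x ∣ Nat.card F - 1 → (Sol x).ncard = 2 * Nat.card F ^ 2 * (Nat.card F - 1)) ∧
    (x ≠ 1 → orderOf x ∣ Nat.card F + 2 ^ (m + 1) + 1 → (Sol x).ncard = 4 * (Nat.card F + 2 ^ (m + 1) + 1)) ∧
    (x ≠ 1 → orderOf x ∣ Nat.card F + 1 - 2 ^ (m + 1) → (Sol x).ncard = 4 * (Nat.card F + 1 - 2 ^ (m + 1))) := by
  have h8 := card_F_ge (F := F) (m := m)
  obtain ⟨t₁, t₂, g₀, g₁, g₂, e₁, e₂, h12, d₁, d₂, o₁, o₂, hcop, hprod, -, -, -, -, -, -⟩ := data F m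
  have ht2 : Nat.card F + 1 - 2 ^ (m + 1) = t₂ := by omega
  rw [ht2, ← e₁]
  have hself : orderOf x ∣ Nat.card (centralizer {x}) := Subgroup.orderOf_dvd_natCard _ (self_cent x)
  refine ⟨?_, ?_, ?_, ?_, ?_⟩
  · intro ho
    apply sol_two hp
    constructor
    · rintro rfl
      rw [orderOf_one] at ho; omega
    · have := pow_orderOf_eq_one x
      rwa [ho, pow_two] at this
  · intro ho
    apply sol_four hp
    have hx1 : x ≠ 1 := by
      rintro rfl
      rw [orderOf_one] at ho; omega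
    refine ⟨⟨hx1, ?_⟩, ?_⟩
    · rcases cent_tri hx1 with h | ⟨-, hcard⟩
      · exact h
      · exfalso
        rw [ho] at hself
        have h1 : Even (2 ^ (m + 1)) := by rw [pow_succ]; exact even_two.mul_left _
        obtain ⟨r, hr'⟩ := h1
        obtain ⟨s, hs⟩ := card_F_even (F := F) (m := m)
        rcases hcard with h | ⟨-, h | h⟩ <;> omega
    · intro h
      have h1 : orderOf x ∣ 2 := orderOf_dvd_of_pow_eq_one (by rw [pow_two, h])
      rw [ho] at h1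
      exact absurd h1 (by decide)
  · intro hx1 ho
    have hoo : Odd (orderOf x) := (odd_card_sub F m).of_dvd_nat ho
    rcases tri x with ⟨y, a, b, h⟩ | ⟨y, j, hj, h⟩ | h
    · exfalso
      refine odd_not_QQ (x := y⁻¹) hx1 hoo ?_
      rw [h]
      have : y⁻¹ * (y * u m a b * y⁻¹) * y⁻¹⁻¹ = u m a b := by group
      rw [this]; exact u_mem_QQ a b
    · rw [h, sol_conj, sol_hh hp hj]
    · exfalso
      have h1 := coprime_aux (card_F_even (F := F) (m := m)) (by omega)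
      have h2 := Nat.eq_one_of_dvd_coprimes h1 ho (Fpf.order_dvd h)
      exact hx1 (orderOf_eq_one_iff.1 h2)
  · intro hx1 ho
    have hf : Fpf x := fpf_of_dvd hx1 (by rw [← hprod]; exact ho.trans (dvd_mul_right _ _))
    rw [sol_tor hp hf]
    congr 1
    rcases cent_tri hx1 with ⟨z, hz⟩ | ⟨-, h | ⟨-, h | h⟩⟩
    · exfalso
      exact odd_not_QQ hx1 (odd_of_dvd (card_F_even (F := F) (m := m)) hf.order_dvd) hz
    · exfalso
      have h3 : Tor (centralizer {x}) := ⟨x, hf, rfl⟩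
      have h4 := h3.five_le
      exact tor_num F m h3.dvd (by omega) h
    · rw [h, e₁]
    · exfalso
      have h5 : Nat.card (centralizer {x}) = t₂ := by omega
      rw [h5] at hself
      exact hx1 (orderOf_eq_one_iff.1 (Nat.eq_one_of_dvd_coprimes hcop ho hself))
  · intro hx1 ho
    have hf : Fpf x := fpf_of_dvd hx1 (by rw [← hprod]; exact ho.trans (dvd_mul_left _ _))
    rw [sol_tor hp hf]
    congr 1
    rcases cent_tri hx1 with ⟨z, hz⟩ | ⟨-, h | ⟨-, h | h⟩⟩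
    · exfalso
      exact odd_not_QQ hx1 (odd_of_dvd (card_F_even (F := F) (m := m)) hf.order_dvd) hz
    · exfalso
      have h3 : Tor (centralizer {x}) := ⟨x, hf, rfl⟩
      have h4 := h3.five_le
      exact tor_num F m h3.dvd (by omega) h
    · exfalso
      rw [← e₁] at h
      rw [h] at hself
      exact hx1 (orderOf_eq_one_iff.1 (Nat.eq_one_of_dvd_coprimes hcop hself ho))
    · omega

end CfsgL.Sz
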