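import Cfsg.Agent.L.Sz.Sub6

/-! Generation by two elements; orders of elements in the standard subgroups. -/

set_option autoImplicit false
set_option maxHeartbeats 400000

namespace CfsgL.Sz

open Subgroup CfsgL.Odd

variable {F : Type*} [Field F] [Fintype F] {m : ℕ} [CharP F 2] [hF : Fact (Fintype.card F = 2 ^ (2 * m + 1))]
variable [hm : Fact (1 ≤ m)]

/-- a standard subgroup is a smaller Suzuki group -/
theorem std_iso {M : Subgroup (Gz F m)} {k : ℕ} {x : Gz F m} (h : IsStd (cj x M) k) :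
    ∃ (K : Type) (_ : Field K) (_ : Fintype K), Fintype.card K = 2 ^ (2 * k + 1) ∧ Nonempty (M ≃* Gz K k) := by
  obtain ⟨hk1, hd, j, hj, ho, S⟩ := h
  haveI : Fact (Nat.Prime 2) := ⟨Nat.prime_two⟩
  letI : Fintype (GaloisField 2 (2 * k + 1)) := Fintype.ofFinite _
  have hK : Fintype.card (GaloisField 2 (2 * k + 1)) = 2 ^ (2 * k + 1) := by
    rw [← Nat.card_eq_fintype_card]; exact GaloisField.card 2 (2 * k + 1) (by omega)
  haveI : Fact (Fintype.card (GaloisField 2 (2 * k + 1)) = 2 ^ (2 * k + 1)) := ⟨hK⟩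
  haveI : Fact (1 ≤ k) := ⟨hk1⟩
  obtain ⟨φ⟩ := exists_phi (F := F) (K := GaloisField 2 (2 * k + 1)) hd
  have h1 := std_range S hj ho hd φ
  have e1 : Gz (GaloisField 2 (2 * k + 1)) k ≃* (emb hd φ).range := MonoidHom.ofInjective (emb_inj hd φ)
  have e2 : M ≃* cj x M := M.equivMapOfInjective _ (MulAut.conj x).injective
  have e3 : M ≃* Gz (GaloisField 2 (2 * k + 1)) k := by
    rw [h1] at e2
    exact e2.trans e1.symm
  exact ⟨GaloisField 2 (2 * k + 1), inferInstance, inferInstance, hK, ⟨e3⟩⟩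

theorem std_top {M : Subgroup (Gz F m)} {k : ℕ} {x : Gz F m} (h : IsStd (cj x M) k) : k < m ∨ M = ⊤ := by
  have hd := h.2.1
  have hkm : k ≤ m := by
    have := Nat.le_of_dvd (by omega) hd
    omega
  rcases hkm.lt_or_eq with h1 | h1
  · exact Or.inl h1
  · right
    subst h1
    obtain ⟨K, _, _, hK, ⟨e⟩⟩ := std_iso h
    haveI := CfsgL.Sz.char_two hK
    haveI : Fact (Fintype.card K = 2 ^ (2 * k + 1)) := ⟨hK⟩
    apply eq_top_of_card_eq
    rw [Nat.card_congr e.toEquiv, card_Gz, card_Gz, card_F (F := F) (m := k), card_F (F := K) (m := k)]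

/-- element orders in a Suzuki group -/
theorem order_le {g : Gz F m} : orderOf g ≤ 3 * Nat.card F := by
  have h8 := card_F_ge (F := F) (m := m)
  by_cases hg : g = 1
  · rw [hg, orderOf_one]; omega
  rcases cent_tri hg with ⟨x, hx⟩ | ⟨-, hcard⟩
  · have := Nat.le_of_dvd (by norm_num) (order_QQ hx)
    omega
  · have h1 : orderOf g ≤ Nat.card (centralizer {g}) :=
      Nat.le_of_dvd Nat.card_pos (Subgroup.orderOf_dvd_natCard _ (mem_centralizer_singleton_iff.2 rfl))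
    have h2 : 2 ^ (m + 1) ≤ 2 ^ (2 * m + 1) := Nat.pow_le_pow_right (by norm_num) (by omega)
    have h3 := card_F (F := F) (m := m)
    have h4 : 1 ≤ 2 ^ (m + 1) := Nat.one_le_two_pow
    rcases hcard with h | ⟨-, h | h⟩ <;> omega

theorem std_order {M : Subgroup (Gz F m)} {k : ℕ} {x : Gz F m} (h : IsStd (cj x M) k) (hkm : k < m) {g : Gz F m}
    (hg : g ∈ M) : 2 * orderOf g < Nat.card F := by
  have hd := h.2.1
  have hk1 := h.1
  obtain ⟨K, _, _, hK, ⟨e⟩⟩ := std_iso h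
  haveI := CfsgL.Sz.char_two hK
  haveI : Fact (Fintype.card K = 2 ^ (2 * k + 1)) := ⟨hK⟩
  haveI : Fact (1 ≤ k) := ⟨hk1⟩
  have h1 : orderOf g = orderOf (e ⟨g, hg⟩) := by
    have h2 := orderOf_injective e.toMonoidHom e.injective ⟨g, hg⟩
    change orderOf (e ⟨g, hg⟩) = _ at h2
    rw [h2]; exact orderOf_coe (⟨g, hg⟩ : M)
  have h2 := order_le (g := e ⟨g, hg⟩)
  rw [card_F (F := K) (m := k)] at h2
  have h3 : 3 * (2 * k + 1) ≤ 2 * m + 1 := by
    obtain ⟨l, hl⟩ := hd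
    have h4 : l ≠ 1 := by rintro rfl; omega
    have h5 : l ≠ 0 := by rintro rfl; omega
    have h6 : l ≠ 2 := by rintro rfl; omega
    have h7 : 3 ≤ l := by omega
    rw [hl, mul_comm 3]
    exact Nat.mul_le_mul_left _ h7
  have h4 : 8 ≤ 2 ^ (2 * k + 1) := by
    calc 8 = 2 ^ 3 := by norm_num
      _ ≤ 2 ^ (2 * k + 1) := Nat.pow_le_pow_right (by norm_num) (by omega)
  have h5 : 2 ^ (3 * (2 * k + 1)) ≤ 2 ^ (2 * m + 1) := Nat.pow_le_pow_right (by norm_num) h3
  have h6 : 2 ^ (3 * (2 * k + 1)) = 2 ^ (2 * k + 1) * (2 ^ (2 * k + 1) * 2 ^ (2 * k + 1)) := by ring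
  have h7 : 8 * 8 ≤ 2 ^ (2 * k + 1) * 2 ^ (2 * k + 1) := Nat.mul_le_mul h4 h4
  have h8 : 2 ^ (2 * k + 1) * (8 * 8) ≤ 2 ^ (2 * k + 1) * (2 ^ (2 * k + 1) * 2 ^ (2 * k + 1)) := Nat.mul_le_mul_left _ h7
  rw [card_F (F := F) (m := m), h1]
  omega

variable (F m) in
include m hF hm in
theorem odd_card_sub : Odd (Nat.card F - 1) := by
  obtain ⟨s, hs⟩ := card_F_even (F := F) (m := m)
  have h8 := card_F_ge (F := F) (m := m)
  exact ⟨s - 1, by omega⟩

theorem two_gen : ∃ a b : Gz F m, closure ({a, b} : Set (Gz F m)) = ⊤ := by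
  obtain ⟨T₁, T₂, h₁, h₂, c₁, c₂, n₁, n₂, hp, hc, hall⟩ := tori_exist (F := F) (m := m)
  have h8 := card_F_ge (F := F) (m := m)
  obtain ⟨j, hj⟩ := IsCyclic.exists_generator (α := Fˣ)
  have hoj : orderOf (hh m j) = Nat.card F - 1 := by
    rw [orderOf_hh, ← Nat.card_units]; exact orderOf_eq_card_of_forall_mem_zpowers hj
  haveI := h₁.cyclic
  obtain ⟨b, hb⟩ := IsCyclic.exists_generator (α := T₁)
  have hob : orderOf (b : Gz F m) = Nat.card T₁ := by
    rw [orderOf_coe]; exact orderOf_eq_card_of_forall_mem_zpowers hb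
  have hT : Nat.card T₁ ∣ Nat.card F ^ 2 + 1 := h₁.dvd
  have hTo : Odd (Nat.card T₁) := odd_of_dvd (card_F_even (F := F) (m := m)) hT
  have hT5 := h₁.five_le
  have hcop := coprime_aux (card_F_even (F := F) (m := m)) (by omega)
  have hcop1 : Nat.Coprime (Nat.card T₁) (Nat.card F - 1) := (hcop.coprime_dvd_right hT).symm
  refine ⟨hh m j, b, ?_⟩
  obtain ⟨M, hM⟩ : ∃ M, M = closure ({hh m j, (b : Gz F m)} : Set (Gz F m)) := ⟨_, rfl⟩
  rw [← hM]
  have haM : hh m j ∈ M := by rw [hM]; exact subset_closure (by simp)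
  have hbM : (b : Gz F m) ∈ M := by rw [hM]; exact subset_closure (by simp)
  have ha1 : Nat.card F - 1 ∣ Nat.card M := by rw [← hoj]; exact Subgroup.orderOf_dvd_natCard _ haM
  have hb1 : Nat.card T₁ ∣ Nat.card M := by rw [← hob]; exact Subgroup.orderOf_dvd_natCard _ hbM
  rcases sub_main M with ⟨x, hx⟩ | ⟨g, hg, hgo, hM2⟩ | ⟨k, x, hst⟩
  · exfalso
    have h1 : x * b * x⁻¹ ∈ BB F m := hx (conj_mem_cj hbM)
    have h2 := Subgroup.orderOf_dvd_natCard _ h1
    rw [orderOf_conj', hob, card_BB] at h2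
    have h3 : Nat.Coprime (Nat.card T₁) (Nat.card F ^ 2) := by
      rw [card_F (F := F) (m := m), ← pow_mul]
      exact Nat.Coprime.pow_right _ (Nat.coprime_two_right.2 hTo)
    have h4 := Nat.eq_one_of_dvd_coprimes hcop1 dvd_rfl (h3.dvd_of_dvd_mul_left h2)
    omega
  · exfalso
    obtain ⟨n, hn, hN⟩ := norm_odd hg hgo
    have hn4 : n ∣ 2 ^ 2 := by rcases hn with rfl | rfl | rfl <;> decide
    have h1 : Nat.card M ∣ 2 ^ 2 * Nat.card (centralizer {g}) := by
      refine (card_dvd_of_le hM2).trans ?_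
      rw [hN]
      exact Nat.mul_dvd_mul_right hn4 _
    have h2 : Nat.card F - 1 ∣ Nat.card (centralizer {g}) := by
      apply Nat.Coprime.dvd_of_dvd_mul_left _ (ha1.trans h1)
      exact Nat.Coprime.pow_right _ (Nat.coprime_two_right.2 (odd_card_sub F m))
    have h3 : Nat.card T₁ ∣ Nat.card (centralizer {g}) := by
      apply Nat.Coprime.dvd_of_dvd_mul_left _ (hb1.trans h1)
      exact Nat.Coprime.pow_right _ (Nat.coprime_two_right.2 hTo)
    rcases cent_tri hg with ⟨x, hx⟩ | ⟨-, h | ⟨hf, -⟩⟩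
    · exact odd_not_QQ hg hgo hx
    · rw [h] at h3
      have h4 := Nat.eq_one_of_dvd_coprimes hcop1 dvd_rfl h3
      omega
    · have h4 : Nat.card (centralizer {g}) ∣ Nat.card F ^ 2 + 1 := Tor.dvd ⟨g, hf, rfl⟩
      have h5 := Nat.eq_one_of_dvd_coprimes hcop dvd_rfl (h2.trans h4)
      omega
  · rcases std_top hst with h | h
    · exfalso
      have h1 := std_order hst h haM
      rw [hoj] at h1
      omega
    · exact h

end CfsgL.Sz
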